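import Mathlib

/-!
Ladder FSP (S5320): the 2-fusion system of `PSp₄(q)`, `q` odd, is simple.  Definitions.

* `Crit3 P` : group-level criterion for simplicity of the 2-fusion system (generalises `Crit2`:
  `N(P)` may induce an extra automorphism `w` of order 3 on `P`).
* `Crit3Z P Z` : the same criterion upstairs, before factoring out a central subgroup `Z ≤ P`.
* `QuatData J t z` : abstract `SL₂(q)`; `h.D`, `h.Q` (generalised quaternion Sylow 2-subgroup).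
* `WrData J t z ι σ τ` : abstract `Sp₄(q) ≥ SL₂(q) ≀ 2`; `h.PP = Q ≀ 2`.
-/

set_option autoImplicit false

namespace Cfsg.Agent.Lib.Helper47.FSP

open Subgroup

/-- `g` normalises `P`. -/
def Nz {H : Type*} [Group H] (P : Subgroup H) (g : H) : Prop := ∀ s, s ∈ P ↔ g * s * g⁻¹ ∈ P

/-- the extra data: `N(P)` acts on `P` as `⟨w⟩P`, and `w` is a product of two 2-elements of `N(A)`,
`A` a normal centric subgroup of `P`. -/
structure Extra {H : Type*} [Group H] (P A : Subgroup H) (w τ : H) : Prop where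
  A_le : A ≤ P
  wP : Nz P w
  wA : Nz A w
  τA : Nz A τ
  normal : ∀ s ∈ P, ∀ a ∈ A, s * a * s⁻¹ ∈ A
  centric : ∀ x : H, (∀ a ∈ A, x * a = a * x) → x ∈ A
  τ_two : ∃ k : ℕ, τ ^ 2 ^ k = 1
  τw : τ * w * τ⁻¹ = w⁻¹
  w_cube : w ^ 3 = 1
  normN : ∀ g : H, Nz P g → ∃ p ∈ P, ∃ i : ℕ, ∀ s ∈ P, g * s * g⁻¹ = (w ^ i * p) * s * (w ^ i * p)⁻¹

structure Crit3 {H : Type*} [Group H] (P : Subgroup H) : Prop where
  pgroup : IsPGroup 2 P
  ne_bot : P ≠ ⊥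
  two : ∀ g : H, Nz P g → (∃ k : ℕ, g ^ 2 ^ k = 1) → g ∈ P
  closed : ∀ X : Subgroup H, X ≤ P → X ≠ ⊥ →
    (∀ t ∈ X, ∀ g : H, g * t * g⁻¹ ∈ P → g * t * g⁻¹ ∈ X) → X = P
  extra : ∃ (A : Subgroup H) (w τ : H), Extra P A w τ

/-- upstairs version of `Extra`, relative to a central subgroup `Z`. -/
structure ExtraZ {H : Type*} [Group H] (P Z A : Subgroup H) (w τ : H) : Prop where
  Z_le : Z ≤ A
  A_le : A ≤ P
  wP : Nz P w
  wA : Nz A w
  τA : Nz A τ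
  normal : ∀ s ∈ P, ∀ a ∈ A, s * a * s⁻¹ ∈ A
  centric : ∀ x : H, (∀ a ∈ A, x * a * x⁻¹ * a⁻¹ ∈ Z) → x ∈ A
  τ_two : ∃ k : ℕ, τ ^ 2 ^ k = 1
  τw : τ * w * τ⁻¹ = w⁻¹
  w_cube : w ^ 3 = 1
  normN : ∀ g : H, Nz P g → ∃ p ∈ P, ∃ i : ℕ, g = w ^ i * p

structure Crit3Z {H : Type*} [Group H] (P Z : Subgroup H) : Prop where
  Z_central : Z ≤ center H
  pgroup : IsPGroup 2 P
  ne : P ≠ Z
  closed : ∀ X : Subgroup H, X ≤ P → Z ≤ X → X ≠ Z →
    (∀ t ∈ X, ∀ g : H, g * t * g⁻¹ ∈ P → g * t * g⁻¹ ∈ X) → X = P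
  extra : ∃ (A : Subgroup H) (w τ : H), ExtraZ P Z A w τ

/-! ### abstract `SL₂(q)` -/

structure QuatData {L : Type*} [Group L] (J t z : L) : Prop where
  z_mem : z ∈ center L
  z_ne : z ≠ 1
  z_sq : z * z = 1
  J_sq : J * J = z
  t_sq : t * t = z
  inv : ∀ d : L, Commute d J → t * d * t⁻¹ = d⁻¹
  comm : ∀ x y : L, Commute x J → Commute y J → Commute x y
  sqrt : ∀ x : L, Commute x J → x * x = z → x = J ∨ x = J⁻¹
  invol : ∀ x : L, x * x = 1 → x = 1 ∨ x = z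
  fus : ∀ u : L, u * u = z → ∃ g : L, g * J * g⁻¹ = u

namespace QuatData

variable {L : Type*} [Group L] {J t z : L}

theorem z_comm (h : QuatData J t z) (x : L) : z * x = x * z := (mem_center_iff.1 h.z_mem x).symm

theorem inv' (h : QuatData J t z) (d : L) (hd : Commute d J) : t⁻¹ * d * t = d⁻¹ := by
  have h1 := h.inv d⁻¹ hd.inv_left
  rw [inv_inv] at h1
  calc t⁻¹ * d * t = t⁻¹ * (t * d⁻¹ * t⁻¹) * t := by rw [h1]
    _ = d⁻¹ := by group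

/-- the 2-elements of `C(J)`. -/
def D (h : QuatData J t z) : Subgroup L where
  carrier := {d | Commute d J ∧ ∃ k : ℕ, d ^ 2 ^ k = 1}
  one_mem' := ⟨Commute.one_left J, 0, by simp⟩
  mul_mem' := by
    rintro a b ⟨ha, k, hk⟩ ⟨hb, l, hl⟩
    refine ⟨ha.mul_left hb, k + l, ?_⟩
    rw [(h.comm a b ha hb).mul_pow, pow_add, pow_mul, hk, one_pow, one_mul, mul_comm (2 ^ k), pow_mul,
      hl, one_pow]
  inv_mem' := by
    rintro a ⟨ha, k, hk⟩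
    exact ⟨ha.inv_left, k, by rw [inv_pow, hk, inv_one]⟩

theorem mem_D (h : QuatData J t z) {d : L} : d ∈ h.D ↔ Commute d J ∧ ∃ k : ℕ, d ^ 2 ^ k = 1 := Iff.rfl

theorem z_mem_D (h : QuatData J t z) : z ∈ h.D :=
  ⟨h.z_comm J, 1, by rw [pow_one, pow_two, h.z_sq]⟩

theorem J_mem_D (h : QuatData J t z) : J ∈ h.D :=
  ⟨Commute.refl J, 2, by
    have : J ^ 2 ^ 2 = (J * J) * (J * J) := by
      norm_num [pow_succ, mul_assoc]
    rw [this, h.J_sq, h.z_sq]⟩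

/-- `Q = O₂(C(J))⟨t⟩`, generalised quaternion. -/
def Q (h : QuatData J t z) : Subgroup L where
  carrier := {g | g ∈ h.D ∨ g * t ∈ h.D}
  one_mem' := Or.inl (one_mem _)
  mul_mem' := by
    rintro a b (ha | ha) (hb | hb)
    · exact Or.inl (mul_mem ha hb)
    · right
      rw [mul_assoc]; exact mul_mem ha hb
    · right
      have e : a * b * t = (a * t) * (t⁻¹ * b * t) := by group
      rw [e, h.inv' b hb.1]; exact mul_mem ha (inv_mem hb)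
    · left
      have e : a * b = (a * t) * (t⁻¹ * (b * t) * t) * (t * t)⁻¹ := by group
      rw [e, h.inv' _ hb.1, h.t_sq]
      exact mul_mem (mul_mem ha (inv_mem hb)) (inv_mem h.z_mem_D)
  inv_mem' := by
    rintro a (ha | ha)
    · exact Or.inl (inv_mem ha)
    · right
      have e : a⁻¹ * t = (t * (a * t)⁻¹ * t⁻¹) * (t * t) := by group
      rw [e, h.inv _ (inv_mem ha).1, inv_inv, h.t_sq]
      exact mul_mem ha h.z_mem_D

theorem mem_Q (h : QuatData J t z) {g : L} : g ∈ h.Q ↔ g ∈ h.D ∨ g * t ∈ h.D := Iff.rfl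

theorem D_le_Q (h : QuatData J t z) : h.D ≤ h.Q := fun _ hx => Or.inl hx

theorem t_mem_Q (h : QuatData J t z) : t ∈ h.Q := Or.inr (by rw [h.t_sq]; exact h.z_mem_D)

theorem J_mem_Q (h : QuatData J t z) : J ∈ h.Q := h.D_le_Q h.J_mem_D

theorem z_mem_Q (h : QuatData J t z) : z ∈ h.Q := h.D_le_Q h.z_mem_D

end QuatData

/-! ### abstract `Sp₄(q)` -/

section Wr

variable {L H : Type*} [Group L] [Group H]

/-- `ι(Q × Q)⟨σ⟩`. -/
def wrSub (Q : Subgroup L) (ι : L × L →* H) (σ : H) (h1 : σ * σ = 1)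
    (h2 : ∀ a b : L, σ * ι (a, b) * σ⁻¹ = ι (b, a)) : Subgroup H where
  carrier := {g | ∃ a ∈ Q, ∃ b ∈ Q, g = ι (a, b) ∨ g = ι (a, b) * σ}
  one_mem' := ⟨1, one_mem _, 1, one_mem _, Or.inl (by
    have : ((1 : L), (1 : L)) = 1 := rfl
    rw [this, map_one])⟩
  mul_mem' := by
    have hs : ∀ a b : L, σ * ι (a, b) = ι (b, a) * σ := by
      intro a b
      rw [← h2 a b]; group
    have hm : ∀ a b c d : L, ι (a, b) * ι (c, d) = ι (a * c, b * d) := by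
      intro a b c d
      rw [← map_mul]; rfl
    rintro x y ⟨a, ha, b, hb, rfl | rfl⟩ ⟨c, hc, d, hd, rfl | rfl⟩
    · exact ⟨a * c, mul_mem ha hc, b * d, mul_mem hb hd, Or.inl (hm _ _ _ _)⟩
    · exact ⟨a * c, mul_mem ha hc, b * d, mul_mem hb hd, Or.inr (by rw [← mul_assoc, hm])⟩
    · exact ⟨a * d, mul_mem ha hd, b * c, mul_mem hb hc, Or.inr (by
        rw [mul_assoc, hs, ← mul_assoc, hm])⟩
    · exact ⟨a * d, mul_mem ha hd, b * c, mul_mem hb hc, Or.inl (by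
        rw [mul_assoc, ← mul_assoc σ, hs, mul_assoc, h1, mul_one, hm])⟩
  inv_mem' := by
    have hs : ∀ a b : L, σ * ι (a, b) = ι (b, a) * σ := by
      intro a b
      rw [← h2 a b]; group
    have hσ : σ⁻¹ = σ := inv_eq_of_mul_eq_one_left h1
    have hi : ∀ a b : L, (ι (a, b))⁻¹ = ι (a⁻¹, b⁻¹) := by
      intro a b
      rw [← map_inv]; rfl
    rintro x ⟨a, ha, b, hb, rfl | rfl⟩
    · exact ⟨a⁻¹, inv_mem ha, b⁻¹, inv_mem hb, Or.inl (hi a b)⟩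
    · exact ⟨b⁻¹, inv_mem hb, a⁻¹, inv_mem ha, Or.inr (by rw [mul_inv_rev, hσ, hi, hs])⟩

structure WrData (J t z : L) (ι : L × L →* H) (σ τ : H) : Prop where
  quat : QuatData J t z
  inj : Function.Injective ι
  σ_sq : σ * σ = 1
  σ_conj : ∀ a b : L, σ * ι (a, b) * σ⁻¹ = ι (b, a)
  cent : ∀ g : H, g * ι (z, 1) = ι (z, 1) * g → ∃ a b : L, g = ι (a, b)
  center : ∀ c : H, c ∈ Subgroup.center H ↔ c = 1 ∨ c = ι (z, z)
  τ_z : τ * ι (z, 1) * τ⁻¹ = σ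

/-- `Q ≀ 2`. -/
def WrData.PP {J t z : L} {ι : L × L →* H} {σ τ : H} (h : WrData J t z ι σ τ) : Subgroup H :=
  wrSub h.quat.Q ι σ h.σ_sq h.σ_conj

theorem WrData.mem_PP {J t z : L} {ι : L × L →* H} {σ τ : H} (h : WrData J t z ι σ τ) {g : H} :
    g ∈ h.PP ↔ ∃ a ∈ h.quat.Q, ∃ b ∈ h.quat.Q, g = ι (a, b) ∨ g = ι (a, b) * σ := Iff.rfl

/-- the extra relations in the case `|Q| = 8`. -/
structure WrDataB (J t z w0 : L) (ι : L × L →* H) (σ τ : H) : Prop where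
  noc : ∀ c : L, Commute c J → c * c ≠ J
  τ_sq : τ * τ = ι (z, z)
  τ_J : τ * ι (J, J) * τ⁻¹ = ι (t⁻¹, t⁻¹)
  τ_t : τ * ι (t, t) * τ⁻¹ = ι (J⁻¹, J⁻¹)
  w_cube : w0 ^ 3 = 1
  w_J : w0 * J * w0⁻¹ = t
  w_t : w0 * t * w0⁻¹ = J * t
  τ_w : τ * ι (w0, w0) * τ⁻¹ = ι (w0⁻¹, w0⁻¹)

/-- `2^{1+4}_-`. -/
def AA (J t z : L) (ι : L × L →* H) (σ : H) : Subgroup H :=
  Subgroup.closure {ι (J, J), ι (t, t), ι (z, 1), σ}

end Wr

end Cfsg.Agent.Lib.Helper47.FSP
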