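import Mathlib
import Cfsg.Agent.Lib.Helper47.FSP.Defs

/-!
Ladder FSP (S5320): basic facts on `QuatData` and `WrData`.
-/

set_option autoImplicit false

namespace Cfsg.Agent.Lib.Helper47.FSP

open Subgroup

namespace QuatData

variable {L : Type*} [Group L] {J t z : L}

theorem z_inv (h : QuatData J t z) : z⁻¹ = z := inv_eq_of_mul_eq_one_left h.z_sq

theorem J_inv (h : QuatData J t z) : J⁻¹ = z * J := by
  apply inv_eq_of_mul_eq_one_left
  rw [mul_assoc, h.J_sq, h.z_sq]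

theorem t_inv (h : QuatData J t z) : t⁻¹ = z * t := by
  apply inv_eq_of_mul_eq_one_left
  rw [mul_assoc, h.t_sq, h.z_sq]

theorem tJ (h : QuatData J t z) : t * J * t⁻¹ = J⁻¹ := h.inv J (Commute.refl J)

theorem J_ne_inv (h : QuatData J t z) : J ≠ J⁻¹ := by
  intro e
  apply h.z_ne
  rw [← h.J_sq]
  nth_rewrite 1 [e]
  exact inv_mul_cancel J

theorem t_not_commute (h : QuatData J t z) : ¬ Commute t J := by
  intro hc
  have h1 : t * J * t⁻¹ = J := by rw [hc.eq, mul_assoc, mul_inv_cancel, mul_one]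
  rw [h.tJ] at h1
  exact h.J_ne_inv h1.symm

/-- `(d t)² = z`. -/
theorem sq_dt (h : QuatData J t z) {d : L} (hd : Commute d J) : (d * t) * (d * t) = z := by
  have e : (d * t) * (d * t) = d * (t * d * t⁻¹) * (t * t) := by group
  rw [e, h.inv d hd, mul_inv_cancel, one_mul, h.t_sq]

theorem dt_not_commute (h : QuatData J t z) {d : L} (hd : Commute d J) : ¬ Commute (d * t) J := by
  intro hc
  apply h.t_not_commute
  have e : t = d⁻¹ * (d * t) := by group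
  rw [e]
  exact hd.inv_left.mul_left hc

theorem dt_mem_Q (h : QuatData J t z) {d : L} (hd : d ∈ h.D) : d * t ∈ h.Q :=
  mul_mem (h.D_le_Q hd) h.t_mem_Q

/-- elements of `Q` are `d` or `d t`. -/
theorem mem_Q_cases (h : QuatData J t z) {g : L} (hg : g ∈ h.Q) :
    g ∈ h.D ∨ ∃ d ∈ h.D, g = d * t := by
  rcases hg with hg | hg
  · exact Or.inl hg
  · refine Or.inr ⟨g * t * z, mul_mem hg h.z_mem_D, ?_⟩
    have e : g * t * z * t = g * (t * t) * z := by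
      rw [mul_assoc (g * t), h.z_comm t]; simp only [mul_assoc]
    rw [e, h.t_sq, mul_assoc, h.z_sq, mul_one]

theorem sq_of_mem_Q (h : QuatData J t z) {g : L} (hg : g ∈ h.Q) (hD : g ∉ h.D) : g * g = z := by
  rcases h.mem_Q_cases hg with h1 | ⟨d, hd, rfl⟩
  · exact absurd h1 hD
  · exact h.sq_dt hd.1

theorem mem_D_of_commute (h : QuatData J t z) {g : L} (hg : g ∈ h.Q) (hc : Commute g J) :
    g ∈ h.D := by
  rcases h.mem_Q_cases hg with h1 | ⟨d, hd, rfl⟩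
  · exact h1
  · exact absurd hc (h.dt_not_commute hd.1)

theorem exists_pow_of_mem_Q (h : QuatData J t z) {g : L} (hg : g ∈ h.Q) :
    ∃ k : ℕ, g ^ 2 ^ k = 1 := by
  rcases h.mem_Q_cases hg with h1 | ⟨d, hd, rfl⟩
  · exact h1.2
  · refine ⟨2, ?_⟩
    have : (d * t) ^ 2 ^ 2 = ((d * t) * (d * t)) * ((d * t) * (d * t)) := by
      norm_num [pow_succ, mul_assoc]
    rw [this, h.sq_dt hd.1, h.z_sq]

theorem isPGroup_Q (h : QuatData J t z) : IsPGroup 2 h.Q := by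
  rintro ⟨g, hg⟩
  obtain ⟨k, hk⟩ := h.exists_pow_of_mem_Q hg
  exact ⟨k, Subtype.ext (by simpa using hk)⟩

/-- `u⁻¹ = z u` when `u² = z`. -/
theorem inv_of_sq (h : QuatData J t z) {u : L} (hu : u * u = z) : u⁻¹ = z * u := by
  apply inv_eq_of_mul_eq_one_left
  rw [mul_assoc, hu, h.z_sq]

/-- `J` inverts `d t`. -/
theorem J_conj_dt (h : QuatData J t z) {d : L} (hd : Commute d J) :
    J * (d * t) * J⁻¹ = (d * t)⁻¹ := by
  have h1 : t * J⁻¹ * t⁻¹ = J := by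
    have := h.inv J⁻¹ (Commute.refl J).inv_left
    rwa [inv_inv] at this
  have h2 : t * J⁻¹ = J * t := by
    have := congrArg (fun x => x * t) h1
    simpa using this
  rw [h.inv_of_sq (h.sq_dt hd), ← mul_assoc, ← hd.eq, mul_assoc, mul_assoc, h2, ← mul_assoc J,
    h.J_sq, ← mul_assoc, ← mul_assoc, h.z_comm d]

/-- every element of `Q` of square `z` is inverted inside `Q`. -/
theorem exists_inverting (h : QuatData J t z) {u : L} (hu : u ∈ h.Q) :
    ∃ b ∈ h.Q, b * u * b⁻¹ = u⁻¹ := by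
  rcases h.mem_Q_cases hu with h1 | ⟨d, hd, rfl⟩
  · exact ⟨t, h.t_mem_Q, h.inv u h1.1⟩
  · exact ⟨J, h.J_mem_Q, h.J_conj_dt hd.1⟩

/-- an element of `C(J)` whose square is a 2-element of ... is in `D`. -/
theorem mem_D_of_sq (h : QuatData J t z) {g : L} (hg : Commute g J) (h2 : g * g ∈ h.D) :
    g ∈ h.D := by
  obtain ⟨-, k, hk⟩ := h2
  exact ⟨hg, k + 1, by rw [pow_succ', pow_mul, pow_two, hk]⟩

/-- `g t g⁻¹ = g² t` for `g ∈ C(J)`. -/
theorem conj_t (h : QuatData J t z) {g : L} (hg : Commute g J) : g * t * g⁻¹ = g * g * t := by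
  have h1 := h.inv g⁻¹ hg.inv_left
  rw [inv_inv] at h1
  calc g * t * g⁻¹ = g * (t * g⁻¹ * t⁻¹) * t := by group
    _ = g * g * t := by rw [h1]

end QuatData

namespace WrData

variable {L H : Type*} [Group L] [Group H] {J t z : L} {ι : L × L →* H} {σ τ : H}

theorem ι_mul (ι : L × L →* H) (a b c d : L) : ι (a, b) * ι (c, d) = ι (a * c, b * d) := by
  rw [← map_mul]; rfl

theorem ι_inv (ι : L × L →* H) (a b : L) : (ι (a, b))⁻¹ = ι (a⁻¹, b⁻¹) := by
  rw [← map_inv]; rfl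

theorem ι_one (ι : L × L →* H) : ι (1, 1) = 1 := by
  have : ((1 : L), (1 : L)) = 1 := rfl
  rw [this, map_one]

theorem ι_pow (ι : L × L →* H) (a b : L) (n : ℕ) : ι (a, b) ^ n = ι (a ^ n, b ^ n) := by
  rw [← map_pow]; rfl

theorem ι_conj (ι : L × L →* H) (a b c d : L) :
    ι (a, b) * ι (c, d) * (ι (a, b))⁻¹ = ι (a * c * a⁻¹, b * d * b⁻¹) := by
  rw [ι_inv, ι_mul, ι_mul]

theorem ι_eq (h : WrData J t z ι σ τ) {a b c d : L} (e : ι (a, b) = ι (c, d)) : a = c ∧ b = d := by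
  have := h.inj e
  exact ⟨congrArg Prod.fst this, congrArg Prod.snd this⟩

theorem σ_inv (h : WrData J t z ι σ τ) : σ⁻¹ = σ := inv_eq_of_mul_eq_one_left h.σ_sq

theorem σ_mul (h : WrData J t z ι σ τ) (a b : L) : σ * ι (a, b) = ι (b, a) * σ := by
  rw [← h.σ_conj a b]; group

theorem ζ_mem (h : WrData J t z ι σ τ) : ι (z, z) ∈ Subgroup.center H := (h.center _).2 (Or.inr rfl)

theorem ζ_comm (h : WrData J t z ι σ τ) (x : H) : ι (z, z) * x = x * ι (z, z) :=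
  (mem_center_iff.1 h.ζ_mem x).symm

/-- `σ ∉ ι(L × L)`, more generally `ι(a,b)σ ∉ ι(L × L)`. -/
theorem ισ_ne (h : WrData J t z ι σ τ) (a b c d : L) : ι (a, b) * σ ≠ ι (c, d) := by
  intro e
  have h1 : σ = ι (a⁻¹ * c, b⁻¹ * d) := by
    rw [← ι_mul, ← ι_inv, ← e]; group
  have h2 := h.σ_conj z 1
  rw [h1, ι_conj] at h2
  have h3 := (h.ι_eq h2).2
  apply h.quat.z_ne
  rw [← h3]; group

theorem ι_mem_PP (h : WrData J t z ι σ τ) {a b : L} (ha : a ∈ h.quat.Q) (hb : b ∈ h.quat.Q) :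
    ι (a, b) ∈ h.PP := ⟨a, ha, b, hb, Or.inl rfl⟩

theorem σ_mem_PP (h : WrData J t z ι σ τ) : σ ∈ h.PP :=
  ⟨1, one_mem _, 1, one_mem _, Or.inr (by rw [ι_one, one_mul])⟩

/-- `ι(a,b) ∈ PP ↔ a, b ∈ Q`. -/
theorem ι_mem_PP_iff (h : WrData J t z ι σ τ) {a b : L} :
    ι (a, b) ∈ h.PP ↔ a ∈ h.quat.Q ∧ b ∈ h.quat.Q := by
  constructor
  · rintro ⟨c, hc, d, hd, e | e⟩
    · obtain ⟨rfl, rfl⟩ := h.ι_eq e
      exact ⟨hc, hd⟩
    · exact absurd e.symm (h.ισ_ne _ _ _ _)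
  · rintro ⟨ha, hb⟩
    exact h.ι_mem_PP ha hb

/-- `ι(a,b)σ ∈ PP ↔ a, b ∈ Q`. -/
theorem ισ_mem_PP_iff (h : WrData J t z ι σ τ) {a b : L} :
    ι (a, b) * σ ∈ h.PP ↔ a ∈ h.quat.Q ∧ b ∈ h.quat.Q := by
  rw [← h.ι_mem_PP_iff]
  constructor
  · intro h1
    have := mul_mem h1 h.σ_mem_PP
    rwa [mul_assoc, h.σ_sq, mul_one] at this
  · intro h1
    exact mul_mem h1 h.σ_mem_PP

end WrData

end Cfsg.Agent.Lib.Helper47.FSP
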