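import Mathlib
import Cfsg.Agent.Lib.Helper47.FSP.Defs
import Cfsg.Agent.Lib.Helper47.FSP.QBasic

/-!
Ladder FSP (S5320), rung WRP: `PP = Q ≀ 2` is a 2-group containing the centre properly.
-/

set_option autoImplicit false

namespace Cfsg.Agent.Lib.Helper47.FSP

open Subgroup

variable {L H : Type*} [Group L] [Group H] {J t z : L} {ι : L × L →* H} {σ τ : H}

theorem WrData.exists_pow_ι (h : WrData J t z ι σ τ) {a b : L} (ha : a ∈ h.quat.Q)
    (hb : b ∈ h.quat.Q) : ∃ k : ℕ, ι (a, b) ^ 2 ^ k = 1 := by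
  obtain ⟨k, hk⟩ := h.quat.exists_pow_of_mem_Q ha
  obtain ⟨l, hl⟩ := h.quat.exists_pow_of_mem_Q hb
  refine ⟨k + l, ?_⟩
  rw [WrData.ι_pow, pow_add, pow_mul, hk, one_pow, mul_comm (2 ^ k), pow_mul, hl, one_pow,
    WrData.ι_one]

theorem WrData.sq_ισ (h : WrData J t z ι σ τ) (a b : L) :
    (ι (a, b) * σ) * (ι (a, b) * σ) = ι (a * b, b * a) := by
  rw [mul_assoc, ← mul_assoc σ, h.σ_mul, mul_assoc, h.σ_sq, mul_one, WrData.ι_mul]

theorem WrData.exists_pow_of_mem_PP (h : WrData J t z ι σ τ) {g : H} (hg : g ∈ h.PP) :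
    ∃ k : ℕ, g ^ 2 ^ k = 1 := by
  obtain ⟨a, ha, b, hb, rfl | rfl⟩ := hg
  · exact h.exists_pow_ι ha hb
  · obtain ⟨k, hk⟩ := h.exists_pow_ι (mul_mem ha hb) (mul_mem hb ha)
    refine ⟨k + 1, ?_⟩
    rw [pow_succ', pow_mul, pow_two, h.sq_ισ, hk]

theorem WrData.isPGroup_PP (h : WrData J t z ι σ τ) : IsPGroup 2 h.PP := by
  rintro ⟨g, hg⟩
  obtain ⟨k, hk⟩ := h.exists_pow_of_mem_PP hg
  exact ⟨k, Subtype.ext (by simpa using hk)⟩

theorem WrData.center_le_PP (h : WrData J t z ι σ τ) : Subgroup.center H ≤ h.PP := by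
  intro c hc
  rcases (h.center c).1 hc with rfl | rfl
  · exact one_mem _
  · exact h.ι_mem_PP h.quat.z_mem_Q h.quat.z_mem_Q

theorem WrData.z1_not_mem_center (h : WrData J t z ι σ τ) : ι (z, 1) ∉ Subgroup.center H := by
  intro hc
  rcases (h.center _).1 hc with e | e
  · rw [← WrData.ι_one ι] at e
    exact h.quat.z_ne (h.ι_eq e).1
  · exact h.quat.z_ne (h.ι_eq e).2.symm

theorem WrData.PP_ne_center (h : WrData J t z ι σ τ) : h.PP ≠ Subgroup.center H := by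
  intro e
  apply h.z1_not_mem_center
  rw [← e]
  exact h.ι_mem_PP h.quat.z_mem_Q (one_mem _)

theorem WrData.σ_comm_diag (h : WrData J t z ι σ τ) (a : L) : σ * ι (a, a) = ι (a, a) * σ :=
  h.σ_mul a a

theorem WrData.Nz_w (h : WrData J t z ι σ τ) {w0 : L} (hw : Nz h.quat.Q w0) :
    Nz h.PP (ι (w0, w0)) := by
  have key : ∀ a b : L, ι (w0, w0) * (ι (a, b) * σ) * (ι (w0, w0))⁻¹
      = ι (w0 * a * w0⁻¹, w0 * b * w0⁻¹) * σ := by
    intro a b
    have e : σ * (ι (w0, w0))⁻¹ = (ι (w0, w0))⁻¹ * σ := by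
      rw [WrData.ι_inv, h.σ_mul]
    rw [mul_assoc, mul_assoc, e, ← mul_assoc, ← mul_assoc, WrData.ι_conj]
  intro s
  constructor
  · rintro ⟨a, ha, b, hb, rfl | rfl⟩
    · rw [WrData.ι_conj]
      exact h.ι_mem_PP ((hw a).1 ha) ((hw b).1 hb)
    · rw [key]
      exact (h.ισ_mem_PP_iff).2 ⟨(hw a).1 ha, (hw b).1 hb⟩
  · rintro ⟨a, ha, b, hb, e | e⟩
    · have e2 : s = ι (w0⁻¹ * a * w0, w0⁻¹ * b * w0) := by
        have : s = (ι (w0, w0))⁻¹ * (ι (w0, w0) * s * (ι (w0, w0))⁻¹) * ι (w0, w0) := by group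
        rw [this, e, WrData.ι_inv, WrData.ι_mul, WrData.ι_mul]
      rw [e2]
      refine h.ι_mem_PP ((hw _).2 ?_) ((hw _).2 ?_)
      · have : w0 * (w0⁻¹ * a * w0) * w0⁻¹ = a := by group
        rw [this]; exact ha
      · have : w0 * (w0⁻¹ * b * w0) * w0⁻¹ = b := by group
        rw [this]; exact hb
    · have e2 : s = ι (w0⁻¹ * a * w0, w0⁻¹ * b * w0) * σ := by
        have h1 : s = (ι (w0, w0))⁻¹ * (ι (w0, w0) * s * (ι (w0, w0))⁻¹) * ι (w0, w0) := by group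
        rw [h1, e, mul_assoc, mul_assoc, h.σ_mul, ← mul_assoc, ← mul_assoc, WrData.ι_inv,
          WrData.ι_mul, WrData.ι_mul]
      rw [e2]
      refine (h.ισ_mem_PP_iff).2 ⟨(hw _).2 ?_, (hw _).2 ?_⟩
      · have : w0 * (w0⁻¹ * a * w0) * w0⁻¹ = a := by group
        rw [this]; exact ha
      · have : w0 * (w0⁻¹ * b * w0) * w0⁻¹ = b := by group
        rw [this]; exact hb

end Cfsg.Agent.Lib.Helper47.FSP
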