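import Mathlib
import Cfsg.Agent.Lib.Helper47.FSP.Defs
import Cfsg.Agent.Lib.Helper47.FSP.QBasic
import Cfsg.Agent.Lib.Helper47.FSP.WRP

/-!
Ladder FSP (S5320), rung AB1: basic facts on `AA = 2^{1+4}_-`.
-/

set_option autoImplicit false

namespace Cfsg.Agent.Lib.Helper47.FSP

open Subgroup

theorem ab1_conj_closure {H : Type*} [Group H] (S : Set H) (g : H)
    (hS : ∀ s ∈ S, g * s * g⁻¹ ∈ closure S) : ∀ x ∈ closure S, g * x * g⁻¹ ∈ closure S := by
  intro x hx
  induction hx using Subgroup.closure_induction with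
  | mem x hx => exact hS x hx
  | one => simp
  | mul x y _ _ hx hy =>
    have : g * (x * y) * g⁻¹ = (g * x * g⁻¹) * (g * y * g⁻¹) := by group
    rw [this]; exact mul_mem hx hy
  | inv x _ hx =>
    have : g * x⁻¹ * g⁻¹ = (g * x * g⁻¹)⁻¹ := by group
    rw [this]; exact inv_mem hx

theorem ab1_Nz_of_pow {H : Type*} [Group H] {P : Subgroup H} {g : H} {n : ℕ} (hn : g ^ (n + 1) = 1)
    (hP : ∀ x ∈ P, g * x * g⁻¹ ∈ P) : Nz P g := by
  have hk : ∀ k : ℕ, ∀ x ∈ P, g ^ k * x * (g ^ k)⁻¹ ∈ P := by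
    intro k
    induction k with
    | zero => intro x hx; simpa using hx
    | succ k ih =>
      intro x hx
      have e : g ^ (k + 1) * x * (g ^ (k + 1))⁻¹ = g * (g ^ k * x * (g ^ k)⁻¹) * g⁻¹ := by
        rw [pow_succ']; group
      rw [e]
      exact hP _ (ih x hx)
  have hg : g ^ n = g⁻¹ := eq_inv_of_mul_eq_one_left (by rw [← pow_succ, hn])
  intro s
  constructor
  · exact hP s
  · intro hs
    have := hk n _ hs
    rw [hg] at this
    have e : g⁻¹ * (g * s * g⁻¹) * g⁻¹⁻¹ = s := by group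
    rwa [e] at this

variable {L H : Type*} [Group L] [Group H] {J t z : L} {ι : L × L →* H} {σ τ : H}

theorem ab1_JJ_mem : ι (J, J) ∈ AA J t z ι σ := subset_closure (by simp)
theorem ab1_tt_mem : ι (t, t) ∈ AA J t z ι σ := subset_closure (by simp)
theorem ab1_z1_mem : ι (z, 1) ∈ AA J t z ι σ := subset_closure (by simp)
theorem ab1_σ_mem : σ ∈ AA J t z ι σ := subset_closure (by simp)

theorem WrData.AA_le (h : WrData J t z ι σ τ) : AA J t z ι σ ≤ h.PP := by
  unfold AA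
  rw [closure_le]
  rintro x (rfl | rfl | rfl | rfl)
  · exact h.ι_mem_PP h.quat.J_mem_Q h.quat.J_mem_Q
  · exact h.ι_mem_PP h.quat.t_mem_Q h.quat.t_mem_Q
  · exact h.ι_mem_PP h.quat.z_mem_Q (one_mem _)
  · exact h.σ_mem_PP

theorem WrData.ab1_zz_mem (h : WrData J t z ι σ τ) : ι (z, z) ∈ AA J t z ι σ := by
  have e : ι (z, z) = ι (J, J) * ι (J, J) := by rw [WrData.ι_mul, h.quat.J_sq]
  rw [e]
  exact mul_mem ab1_JJ_mem ab1_JJ_mem

theorem WrData.center_le_AA (h : WrData J t z ι σ τ) : Subgroup.center H ≤ AA J t z ι σ := by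
  intro c hc
  rcases (h.center c).1 hc with rfl | rfl
  · exact one_mem _
  · exact h.ab1_zz_mem

theorem WrData.Nz_AA_w (h : WrData J t z ι σ τ) {w0 : L} (hB : WrDataB J t z w0 ι σ τ) :
    Nz (AA J t z ι σ) (ι (w0, w0)) := by
  apply ab1_Nz_of_pow (n := 2)
  · rw [WrData.ι_pow, hB.w_cube, WrData.ι_one]
  · apply ab1_conj_closure
    rintro x (rfl | rfl | rfl | rfl)
    · rw [WrData.ι_conj, hB.w_J]
      exact ab1_tt_mem
    · rw [WrData.ι_conj, hB.w_t, ← WrData.ι_mul]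
      exact mul_mem ab1_JJ_mem ab1_tt_mem
    · rw [WrData.ι_conj]
      have e1 : w0 * z * w0⁻¹ = z := by rw [← h.quat.z_comm, mul_assoc, mul_inv_cancel, mul_one]
      have e2 : w0 * 1 * w0⁻¹ = 1 := by group
      rw [e1, e2]
      exact ab1_z1_mem
    · rw [← h.σ_comm_diag, mul_assoc, mul_inv_cancel, mul_one]
      exact ab1_σ_mem

theorem WrData.Nz_AA_τ (h : WrData J t z ι σ τ) {w0 : L} (hB : WrDataB J t z w0 ι σ τ) :
    Nz (AA J t z ι σ) τ := by
  apply ab1_Nz_of_pow (n := 3)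
  · have e : τ ^ (3 + 1) = (τ * τ) * (τ * τ) := by
      norm_num [pow_succ, mul_assoc]
    rw [e, hB.τ_sq, WrData.ι_mul, h.quat.z_sq, WrData.ι_one]
  · apply ab1_conj_closure
    rintro x (rfl | rfl | rfl | rfl)
    · rw [hB.τ_J, ← WrData.ι_inv]
      exact inv_mem ab1_tt_mem
    · rw [hB.τ_t, ← WrData.ι_inv]
      exact inv_mem ab1_JJ_mem
    · rw [h.τ_z]
      exact ab1_σ_mem
    · have e : τ * x * τ⁻¹ = (τ * τ) * ι (z, 1) * (τ * τ)⁻¹ := by
        rw [← h.τ_z]; group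
      rw [e, hB.τ_sq, h.ζ_comm, mul_assoc, mul_inv_cancel, mul_one]
      exact ab1_z1_mem

end Cfsg.Agent.Lib.Helper47.FSP
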