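import Mathlib
import Cfsg.Agent.Lib.Helper47.FSP.Defs
import Cfsg.Agent.Lib.Helper47.FSP.QBasic
import Cfsg.Agent.Lib.Helper47.FSP.WRP
import Cfsg.Agent.Lib.Helper47.FSP.AB1

/-!
Ladder FSP (S5320), rung AB2: `AA` is normal in `PP` when `|Q| = 8`.
-/

set_option autoImplicit false

namespace Cfsg.Agent.Lib.Helper47.FSP

open Subgroup

variable {L H : Type*} [Group L] [Group H] {J t z : L} {ι : L × L →* H} {σ τ : H}

theorem WrData.ab2_1z_mem (h : WrData J t z ι σ τ) : ι (1, z) ∈ AA J t z ι σ := by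
  have e : ι (1, z) = ι (z, 1) * ι (z, z) := by rw [WrData.ι_mul, h.quat.z_sq, one_mul]
  rw [e]
  exact mul_mem ab1_z1_mem h.ab1_zz_mem

theorem WrData.ab2_mem (h : WrData J t z ι σ τ) {u x y : L} (hu : ι (u, u) ∈ AA J t z ι σ)
    (hx : x = u ∨ x = z * u) (hy : y = u ∨ y = z * u) : ι (x, y) ∈ AA J t z ι σ := by
  rcases hx with rfl | rfl <;> rcases hy with rfl | rfl
  · exact hu
  · have e : ι (x, z * x) = ι (1, z) * ι (x, x) := by rw [WrData.ι_mul, one_mul]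
    rw [e]; exact mul_mem h.ab2_1z_mem hu
  · have e : ι (z * y, y) = ι (z, 1) * ι (y, y) := by rw [WrData.ι_mul, one_mul]
    rw [e]; exact mul_mem ab1_z1_mem hu
  · have e : ι (z * u, z * u) = ι (z, z) * ι (u, u) := by rw [WrData.ι_mul]
    rw [e]; exact mul_mem h.ab1_zz_mem hu

theorem WrData.ab2_dd_mem (h : WrData J t z ι σ τ)
    (hD : ∀ d ∈ h.quat.D, d = 1 ∨ d = z ∨ d = J ∨ d = J⁻¹) {d : L} (hd : d ∈ h.quat.D) :
    ι (d, d) ∈ AA J t z ι σ := by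
  rcases hD d hd with rfl | rfl | rfl | rfl
  · rw [WrData.ι_one]; exact one_mem _
  · exact h.ab1_zz_mem
  · exact ab1_JJ_mem
  · rw [← WrData.ι_inv]; exact inv_mem ab1_JJ_mem

theorem WrData.ab2_cc_mem (h : WrData J t z ι σ τ)
    (hD : ∀ d ∈ h.quat.D, d = 1 ∨ d = z ∨ d = J ∨ d = J⁻¹) {c : L} (hc : c ∈ h.quat.Q) :
    ι (c, c) ∈ AA J t z ι σ := by
  rcases h.quat.mem_Q_cases hc with h1 | ⟨d, hd, rfl⟩
  · exact h.ab2_dd_mem hD h1
  · rw [← WrData.ι_mul]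
    exact mul_mem (h.ab2_dd_mem hD hd) ab1_tt_mem

theorem QuatData.ab2_d_sq (h : QuatData J t z)
    (hD : ∀ d ∈ h.D, d = 1 ∨ d = z ∨ d = J ∨ d = J⁻¹) {d : L} (hd : d ∈ h.D) :
    d * d = 1 ∨ d * d = z := by
  rcases hD d hd with rfl | rfl | rfl | rfl
  · left; simp
  · left; exact h.z_sq
  · right; exact h.J_sq
  · right
    rw [← mul_inv_rev, h.J_sq, h.z_inv]

theorem QuatData.ab2_sq (h : QuatData J t z)
    (hD : ∀ d ∈ h.D, d = 1 ∨ d = z ∨ d = J ∨ d = J⁻¹) {c : L} (hc : c ∈ h.Q) :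
    c * c = 1 ∨ c * c = z := by
  by_cases h1 : c ∈ h.D
  · exact h.ab2_d_sq hD h1
  · right; exact h.sq_of_mem_Q hc h1

theorem QuatData.ab2_conj_J (h : QuatData J t z) {c : L} (hc : c ∈ h.Q) :
    c * J * c⁻¹ = J ∨ c * J * c⁻¹ = z * J := by
  rcases h.mem_Q_cases hc with h1 | ⟨d, hd, rfl⟩
  · left
    rw [h1.1.eq, mul_assoc, mul_inv_cancel, mul_one]
  · right
    have e : d * t * J * (d * t)⁻¹ = d * (t * J * t⁻¹) * d⁻¹ := by group
    rw [e, h.tJ, ← h.J_inv, (hd.1.inv_right).eq, mul_assoc, mul_inv_cancel, mul_one]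

theorem QuatData.ab2_conj_t (h : QuatData J t z)
    (hD : ∀ d ∈ h.D, d = 1 ∨ d = z ∨ d = J ∨ d = J⁻¹) {c : L} (hc : c ∈ h.Q) :
    c * t * c⁻¹ = t ∨ c * t * c⁻¹ = z * t := by
  have key : ∀ d ∈ h.D, d * t * d⁻¹ = t ∨ d * t * d⁻¹ = z * t := by
    intro d hd
    rw [h.conj_t hd.1]
    rcases h.ab2_d_sq hD hd with e | e
    · left; rw [e, one_mul]
    · right; rw [e]
  rcases h.mem_Q_cases hc with h1 | ⟨d, hd, rfl⟩
  · exact key c h1
  · have e : d * t * t * (d * t)⁻¹ = d * t * d⁻¹ := by group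
    rw [e]
    exact key d hd

theorem WrData.AA_normal (h : WrData J t z ι σ τ)
    (hD : ∀ d ∈ h.quat.D, d = 1 ∨ d = z ∨ d = J ∨ d = J⁻¹) :
    ∀ s ∈ h.PP, ∀ a ∈ AA J t z ι σ, s * a * s⁻¹ ∈ AA J t z ι σ := by
  have key : ∀ a ∈ h.quat.Q, ∀ b ∈ h.quat.Q, ∀ x ∈ AA J t z ι σ,
      ι (a, b) * x * (ι (a, b))⁻¹ ∈ AA J t z ι σ := by
    intro a ha b hb
    apply ab1_conj_closure
    rintro x (rfl | rfl | rfl | rfl)
    · rw [WrData.ι_conj]
      exact h.ab2_mem ab1_JJ_mem (h.quat.ab2_conj_J ha) (h.quat.ab2_conj_J hb)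
    · rw [WrData.ι_conj]
      exact h.ab2_mem ab1_tt_mem (h.quat.ab2_conj_t hD ha) (h.quat.ab2_conj_t hD hb)
    · rw [WrData.ι_conj]
      have e1 : a * z * a⁻¹ = z := by rw [← h.quat.z_comm, mul_assoc, mul_inv_cancel, mul_one]
      have e2 : b * 1 * b⁻¹ = 1 := by group
      rw [e1, e2]
      exact ab1_z1_mem
    · have hc : a * b⁻¹ ∈ h.quat.Q := mul_mem ha (inv_mem hb)
      have e : ι (a, b) * x * (ι (a, b))⁻¹ = ι (a * b⁻¹, (a * b⁻¹)⁻¹) * x := by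
        rw [WrData.ι_inv, mul_assoc, h.σ_mul, ← mul_assoc, WrData.ι_mul, mul_inv_rev, inv_inv]
      rw [e]
      refine mul_mem (h.ab2_mem (h.ab2_cc_mem hD hc) (Or.inl rfl) ?_) ab1_σ_mem
      rcases h.quat.ab2_sq hD hc with e | e
      · left; exact inv_eq_of_mul_eq_one_left e
      · right; exact h.quat.inv_of_sq e
  rintro s ⟨a, ha, b, hb, rfl | rfl⟩ x hx
  · exact key a ha b hb x hx
  · have e : ι (a, b) * σ * x * (ι (a, b) * σ)⁻¹ = ι (a, b) * (σ * x * σ⁻¹) * (ι (a, b))⁻¹ := by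
      group
    rw [e]
    exact key a ha b hb _ (mul_mem (mul_mem ab1_σ_mem hx) (inv_mem ab1_σ_mem))

end Cfsg.Agent.Lib.Helper47.FSP
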