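import Mathlib
import Cfsg.Agent.Lib.Helper47.FSP.Defs
import Cfsg.Agent.Lib.Helper47.FSP.QBasic
import Cfsg.Agent.Lib.Helper47.FSP.WRP
import Cfsg.Agent.Lib.Helper47.FSP.AB1

/-!
Ladder FSP (S5320), rung AB3: `AA` is centric modulo the centre.
-/

set_option autoImplicit false

namespace Cfsg.Agent.Lib.Helper47.FSP

open Subgroup

variable {L H : Type*} [Group L] [Group H] {J t z : L} {ι : L × L →* H} {σ τ : H}

/-- `x` centralises the four generators of `AA` modulo the centre. -/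
def ab3C (J t z : L) (ι : L × L →* H) (σ : H) (x : H) : Prop :=
  ∀ a ∈ ({ι (J, J), ι (t, t), ι (z, 1), σ} : Set H), x * a * x⁻¹ * a⁻¹ ∈ Subgroup.center H

theorem ab3C_mul {x y : H} (hy : ab3C J t z ι σ y) (hx : ab3C J t z ι σ x) :
    ab3C J t z ι σ (y * x) := by
  intro a ha
  have e : y * x * a * (y * x)⁻¹ * a⁻¹ = y * (x * a * x⁻¹ * a⁻¹) * (a * y⁻¹ * a⁻¹) := by group
  rw [e, mem_center_iff.1 (hx a ha) y]
  have e2 : x * a * x⁻¹ * a⁻¹ * y * (a * y⁻¹ * a⁻¹) = (x * a * x⁻¹ * a⁻¹) * (y * a * y⁻¹ * a⁻¹) := by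
    group
  rw [e2]
  exact mul_mem (hx a ha) (hy a ha)

theorem WrData.ab3_comm_ι (a b c d : L) :
    ι (a, b) * ι (c, d) * (ι (a, b))⁻¹ * (ι (c, d))⁻¹ = ι (a * c * a⁻¹ * c⁻¹, b * d * b⁻¹ * d⁻¹) := by
  rw [WrData.ι_conj, WrData.ι_inv, WrData.ι_mul]

theorem WrData.ab3_comm_σ (h : WrData J t z ι σ τ) (a b : L) :
    ι (a, b) * σ * (ι (a, b))⁻¹ * σ⁻¹ = ι (a * b⁻¹, b * a⁻¹) := by
  rw [WrData.ι_inv, mul_assoc (ι (a, b)), h.σ_mul, mul_assoc, mul_assoc, mul_inv_cancel, mul_one,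
    WrData.ι_mul]

theorem WrData.ab3_σ_comm (h : WrData J t z ι σ τ) (a b : L) :
    σ * ι (a, b) * σ⁻¹ * (ι (a, b))⁻¹ = ι (b * a⁻¹, a * b⁻¹) := by
  rw [h.σ_conj, WrData.ι_inv, WrData.ι_mul]

theorem WrData.ab3C_σ (h : WrData J t z ι σ τ) : ab3C J t z ι σ σ := by
  rintro a (rfl | rfl | rfl | rfl)
  · rw [h.ab3_σ_comm, mul_inv_cancel, WrData.ι_one]; exact one_mem _
  · rw [h.ab3_σ_comm, mul_inv_cancel, WrData.ι_one]; exact one_mem _
  · rw [h.ab3_σ_comm, h.quat.z_inv, one_mul, inv_one, mul_one]; exact h.ζ_mem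
  · have e : a * a * a⁻¹ * a⁻¹ = 1 := by group
    rw [e]; exact one_mem _

theorem WrData.ab3C_z1 (h : WrData J t z ι σ τ) : ab3C J t z ι σ (ι (z, 1)) := by
  have hz : ∀ u : L, z * u * z⁻¹ * u⁻¹ = 1 := by
    intro u
    rw [h.quat.z_comm u]; group
  have h1 : ∀ u : L, 1 * u * 1⁻¹ * u⁻¹ = 1 := by intro u; group
  rintro a (rfl | rfl | rfl | rfl)
  · rw [WrData.ab3_comm_ι, hz, h1, WrData.ι_one]; exact one_mem _
  · rw [WrData.ab3_comm_ι, hz, h1, WrData.ι_one]; exact one_mem _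
  · rw [WrData.ab3_comm_ι, hz, h1, WrData.ι_one]; exact one_mem _
  · rw [h.ab3_comm_σ, h.quat.z_inv, one_mul, inv_one, mul_one]; exact h.ζ_mem

theorem WrData.ab3C_tt (h : WrData J t z ι σ τ) : ab3C J t z ι σ (ι (t, t)) := by
  rintro a (rfl | rfl | rfl | rfl)
  · rw [WrData.ab3_comm_ι, h.quat.tJ, ← mul_inv_rev, h.quat.J_sq, h.quat.z_inv]; exact h.ζ_mem
  · have e : ι (t, t) * ι (t, t) * (ι (t, t))⁻¹ * (ι (t, t))⁻¹ = 1 := by group
    rw [e]; exact one_mem _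
  · have e1 : t * z * t⁻¹ * z⁻¹ = 1 := by rw [← h.quat.z_comm t]; group
    have e2 : t * 1 * t⁻¹ * 1⁻¹ = 1 := by group
    rw [WrData.ab3_comm_ι, e1, e2, WrData.ι_one]; exact one_mem _
  · rw [h.ab3_comm_σ, mul_inv_cancel, WrData.ι_one]; exact one_mem _

theorem WrData.ab3_cases (h : WrData J t z ι σ τ) {a b : L}
    (hc : ι (a, b) ∈ Subgroup.center H) : (a = 1 ∧ b = 1) ∨ (a = z ∧ b = z) := by
  rcases (h.center _).1 hc with e | e
  · rw [← WrData.ι_one ι] at e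
    exact Or.inl (h.ι_eq e)
  · exact Or.inr (h.ι_eq e)

theorem WrData.ab3_s4 (h : WrData J t z ι σ τ) {g : L} (hg : Commute g J)
    (hc : ab3C J t z ι σ (ι (g, g))) : ι (g, g) ∈ AA J t z ι σ := by
  have h1 := hc (ι (t, t)) (by simp)
  rw [WrData.ab3_comm_ι, h.quat.conj_t hg, mul_assoc, mul_inv_cancel, mul_one] at h1
  rcases h.ab3_cases h1 with ⟨e, -⟩ | ⟨e, -⟩
  · rcases h.quat.invol g e with rfl | rfl
    · rw [WrData.ι_one]; exact one_mem _
    · exact h.ab1_zz_mem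
  · rcases h.quat.sqrt g hg e with rfl | rfl
    · exact ab1_JJ_mem
    · rw [← WrData.ι_inv]; exact inv_mem ab1_JJ_mem

theorem WrData.ab3_s3 (h : WrData J t z ι σ τ) {g : L}
    (hc : ab3C J t z ι σ (ι (g, g))) : ι (g, g) ∈ AA J t z ι σ := by
  have h1 := hc (ι (J, J)) (by simp)
  rw [WrData.ab3_comm_ι] at h1
  rcases h.ab3_cases h1 with ⟨e, -⟩ | ⟨e, -⟩
  · apply h.ab3_s4 _ hc
    have : g * J = J * g := by
      calc g * J = (g * J * g⁻¹ * J⁻¹) * J * g := by group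
        _ = J * g := by rw [e, one_mul]
    exact this
  · have h2 : ι (t * g, t * g) ∈ AA J t z ι σ := by
      apply h.ab3_s4
      · have e3 : g * J * g⁻¹ = J⁻¹ := by
          calc g * J * g⁻¹ = (g * J * g⁻¹ * J⁻¹) * J := by group
            _ = J⁻¹ := by rw [e, h.quat.J_inv]
        have e4 : t * J⁻¹ * t⁻¹ = J := by
          have := h.quat.inv J⁻¹ (Commute.refl J).inv_left
          rwa [inv_inv] at this
        have : t * g * J = J * (t * g) := by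
          calc t * g * J = t * (g * J * g⁻¹) * t⁻¹ * (t * g) := by group
            _ = J * (t * g) := by rw [e3, e4]
        exact this
      · rw [← WrData.ι_mul]
        exact ab3C_mul h.ab3C_tt hc
    have e5 : ι (g, g) = (ι (t, t))⁻¹ * ι (t * g, t * g) := by
      rw [← WrData.ι_mul]; group
    rw [e5]
    exact mul_mem (inv_mem ab1_tt_mem) h2

theorem WrData.ab3_s2 (h : WrData J t z ι σ τ) {g1 g2 : L}
    (hc : ab3C J t z ι σ (ι (g1, g2))) : ι (g1, g2) ∈ AA J t z ι σ := by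
  have h1 := hc σ (by simp)
  rw [h.ab3_comm_σ] at h1
  rcases h.ab3_cases h1 with ⟨e, -⟩ | ⟨e, -⟩
  · have : g1 = g2 := mul_inv_eq_one.1 e
    subst this
    exact h.ab3_s3 hc
  · have e1 : g1 = z * g2 := mul_inv_eq_iff_eq_mul.1 e
    have e2 : ι (z, 1) * ι (g1, g2) = ι (g2, g2) := by
      rw [WrData.ι_mul, e1, ← mul_assoc, h.quat.z_sq, one_mul]
    have h2 : ι (g2, g2) ∈ AA J t z ι σ := by
      apply h.ab3_s3
      rw [← e2]
      exact ab3C_mul h.ab3C_z1 hc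
    have e3 : ι (g1, g2) = (ι (z, 1))⁻¹ * ι (g2, g2) := by
      rw [← e2]; group
    rw [e3]
    exact mul_mem (inv_mem ab1_z1_mem) h2

theorem WrData.ab3_s1 (h : WrData J t z ι σ τ) {x : H}
    (hc : ab3C J t z ι σ x) : x ∈ AA J t z ι σ := by
  have h1 := hc (ι (z, 1)) (by simp)
  rcases (h.center _).1 h1 with e | e
  · have e1 : x * ι (z, 1) = ι (z, 1) * x := by
      calc x * ι (z, 1) = (x * ι (z, 1) * x⁻¹ * (ι (z, 1))⁻¹) * ι (z, 1) * x := by group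
        _ = _ := by rw [e, one_mul]
    obtain ⟨a, b, rfl⟩ := h.cent x e1
    exact h.ab3_s2 hc
  · have e0 : x * ι (z, 1) * x⁻¹ = ι (1, z) := by
      calc x * ι (z, 1) * x⁻¹ = (x * ι (z, 1) * x⁻¹ * (ι (z, 1))⁻¹) * ι (z, 1) := by group
        _ = _ := by rw [e, WrData.ι_mul, h.quat.z_sq, mul_one]
    have e1 : (σ * x) * ι (z, 1) = ι (z, 1) * (σ * x) := by
      calc (σ * x) * ι (z, 1) = σ * (x * ι (z, 1) * x⁻¹) * σ⁻¹ * (σ * x) := by group
        _ = _ := by rw [e0, h.σ_conj]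
    obtain ⟨a, b, hab⟩ := h.cent _ e1
    have h2 : ι (a, b) ∈ AA J t z ι σ := by
      apply h.ab3_s2
      rw [← hab]
      exact ab3C_mul h.ab3C_σ hc
    have e3 : x = σ⁻¹ * ι (a, b) := by rw [← hab]; group
    rw [e3]
    exact mul_mem (inv_mem ab1_σ_mem) h2

theorem WrData.AA_centric (h : WrData J t z ι σ τ) :
    ∀ x : H, (∀ a ∈ AA J t z ι σ, x * a * x⁻¹ * a⁻¹ ∈ Subgroup.center H) → x ∈ AA J t z ι σ := by
  intro x hx
  apply h.ab3_s1
  intro a ha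
  exact hx a (subset_closure ha)

end Cfsg.Agent.Lib.Helper47.FSP
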