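import Mathlib
import Cfsg.Agent.Lib.Helper47.FSP.Defs

/-!
Ladder FSP (S5320), rung CRITCONJ: `Crit3` is invariant under isomorphisms, in particular conjugation.
-/

set_option autoImplicit false

namespace Cfsg.Agent.Lib.Helper47.FSP

open Subgroup

variable {H H' : Type*} [Group H] [Group H']

theorem critconj_mem (e : H ≃* H') (B : Subgroup H) (x : H) :
    e x ∈ B.map e.toMonoidHom ↔ x ∈ B :=
  Subgroup.mem_map_iff_mem (f := e.toMonoidHom) e.injective

theorem critconj_Nz (e : H ≃* H') (B : Subgroup H) (g : H) :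
    Nz (B.map e.toMonoidHom) (e g) ↔ Nz B g := by
  constructor
  · intro hg s
    have := hg (e s)
    rwa [← map_inv, ← map_mul, ← map_mul, critconj_mem, critconj_mem] at this
  · intro hg sb
    obtain ⟨s, rfl⟩ := e.surjective sb
    rw [← map_inv, ← map_mul, ← map_mul, critconj_mem, critconj_mem]
    exact hg s

theorem Crit3.map_equiv {P : Subgroup H} (h : Crit3 P) (e : H ≃* H') :
    Crit3 (P.map e.toMonoidHom) := by
  refine ⟨h.pgroup.map _, ?_, ?_, ?_, ?_⟩
  · intro hb
    rw [Subgroup.map_eq_bot_iff_of_injective _ e.injective] at hb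
    exact h.ne_bot hb
  · intro gb hg ⟨k, hk⟩
    obtain ⟨g, rfl⟩ := e.surjective gb
    rw [critconj_mem]
    apply h.two g ((critconj_Nz e P g).1 hg)
    refine ⟨k, e.injective ?_⟩
    rw [map_pow, hk, map_one]
  · intro X hX hXb hcl
    have h1 : X.comap e.toMonoidHom = P := by
      apply h.closed
      · intro x hxX
        exact (critconj_mem e P x).1 (hX hxX)
      · intro eb
        apply hXb
        rw [eq_bot_iff]
        intro xb hxb
        obtain ⟨x, rfl⟩ := e.surjective xb
        have : x ∈ X.comap e.toMonoidHom := hxb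
        rw [eb, Subgroup.mem_bot] at this
        rw [this, map_one]; exact one_mem _
      · intro t ht g hgt
        show e (g * t * g⁻¹) ∈ X
        rw [map_mul, map_mul, map_inv]
        apply hcl (e t) ht
        rw [← map_inv, ← map_mul, ← map_mul, critconj_mem]
        exact hgt
    apply le_antisymm hX
    rintro _ ⟨p, hp, rfl⟩
    rw [← h1] at hp
    exact hp
  · obtain ⟨A, w, τ, hx⟩ := h.extra
    refine ⟨A.map e.toMonoidHom, e w, e τ, ?_⟩
    refine ⟨Subgroup.map_mono hx.A_le, (critconj_Nz e P w).2 hx.wP, (critconj_Nz e A w).2 hx.wA,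
      (critconj_Nz e A τ).2 hx.τA, ?_, ?_, ?_, ?_, ?_, ?_⟩
    · rintro _ ⟨s, hs, rfl⟩ _ ⟨a, ha, rfl⟩
      exact ⟨_, hx.normal s hs a ha, by simp⟩
    · intro xb hxb
      obtain ⟨x, rfl⟩ := e.surjective xb
      rw [critconj_mem]
      apply hx.centric
      intro a ha
      apply e.injective
      rw [map_mul, map_mul]
      exact hxb (e a) ((critconj_mem e A a).2 ha)
    · obtain ⟨k, hk⟩ := hx.τ_two
      exact ⟨k, by rw [← map_pow, hk, map_one]⟩
    · rw [← map_inv, ← map_mul, ← map_mul, hx.τw, map_inv]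
    · rw [← map_pow, hx.w_cube, map_one]
    · intro gb hg
      obtain ⟨g, rfl⟩ := e.surjective gb
      obtain ⟨p, hp, i, hpi⟩ := hx.normN g ((critconj_Nz e P g).1 hg)
      refine ⟨e p, (critconj_mem e P p).2 hp, i, ?_⟩
      rintro _ ⟨s, hs, rfl⟩
      have := congrArg e (hpi s hs)
      simp only [map_mul, map_inv, map_pow] at this
      exact this

theorem Crit3.conj {P P' : Subgroup H} (h : Crit3 P) (c : H)
    (hP' : ∀ x, x ∈ P' ↔ c⁻¹ * x * c ∈ P) : Crit3 P' := by
  have hmap : P' = P.map (MulAut.conj c).toMonoidHom := by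
    ext x
    rw [hP', Subgroup.mem_map]
    constructor
    · intro hx
      exact ⟨_, hx, by simp [mul_assoc]⟩
    · rintro ⟨y, hy, rfl⟩
      simpa [mul_assoc] using hy
  rw [hmap]
  exact h.map_equiv (MulAut.conj c)

end Cfsg.Agent.Lib.Helper47.FSP
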