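import Mathlib
import Cfsg.Prelude.Def_FusionSystem
import Cfsg.Agent.S5076
import Cfsg.Agent.Lib.Helper88.Invariant
import Cfsg.Agent.Lib.Helper88.GoingUp
import Cfsg.Agent.Lib.Helper86.FusionSatEquiv
import Cfsg.Agent.Lib.Helper47.FSP.Defs

/-!
Ladder FSP (S5320), rung CRITTOP: the criterion `Crit3` implies simplicity of the 2-fusion system.
-/

set_option autoImplicit false

namespace Cfsg.Agent.Lib.Helper47.FSP

open Cfsg Cfsg.FusionSystem Cfsg.Agent.Lib.Helper87 Cfsg.Agent.Lib.Helper88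

variable {H : Type*} [Group H]

theorem crittop_mor_group {S P : Subgroup H} (hP : P ≤ S) (g : H) (hg : ∀ x ∈ P, g * x * g⁻¹ ∈ S) :
    Mor (groupFusionSystem S) P (fun x => g * x * g⁻¹) :=
  ⟨conjHom P g, ⟨hP, fun x => hg x x.2, g, fun _ => rfl⟩, fun _ => rfl⟩

theorem crittop_iso_group {S P : Subgroup H} (hP : P ≤ S) (g : H) (hg : Nz P g) :
    Iso (groupFusionSystem S) P P (fun x => g * x * g⁻¹) := by
  refine ⟨crittop_mor_group hP g (fun x hx => hP ((hg x).1 hx)), fun y => ?_⟩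
  constructor
  · intro hy
    refine ⟨g⁻¹ * y * g, (hg _).2 ?_, by group⟩
    have e : g * (g⁻¹ * y * g) * g⁻¹ = y := by group
    rw [e]; exact hy
  · rintro ⟨x, hx, rfl⟩
    exact (hg x).1 hx

theorem crittop_Nz_mul {P : Subgroup H} {a b : H} (ha : Nz P a) (hb : Nz P b) : Nz P (a * b) := by
  intro s
  rw [hb s, ha (b * s * b⁻¹)]
  have e : a * (b * s * b⁻¹) * a⁻¹ = a * b * s * (a * b)⁻¹ := by group
  rw [e]

theorem crittop_Nz_inv {P : Subgroup H} {a : H} (ha : Nz P a) : Nz P a⁻¹ := by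
  intro s
  rw [ha (a⁻¹ * s * a⁻¹⁻¹)]
  have e : a * (a⁻¹ * s * a⁻¹⁻¹) * a⁻¹ = s := by group
  rw [e]

/-- 2-elements of `N_H(A)` induce maps of `E` on `A`. -/
theorem crittop_two [Finite H] {S : Sylow 2 H} {E : FusionSystem (S : Subgroup H)}
    (hinv : E.IsInvariantIn (groupFusionSystem (S : Subgroup H)))
    {A : Subgroup H} (hfa : (groupFusionSystem (S : Subgroup H)).IsFullyAutomized 2 A)
    {u : H} (hu : Nz A u) (h2 : ∃ k : ℕ, u ^ 2 ^ k = 1) : Mor E A (fun x => u * x * u⁻¹) := by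
  have : Fact (Nat.Prime 2) := ⟨Nat.prime_two⟩
  have hAS : A ≤ (S : Subgroup H) := hfa.1
  obtain ⟨α, hα, eα⟩ := (crittop_iso_group hAS u hu).exists_aut
  have hpow : ∀ (n : ℕ) (x : A), (((α ^ n) x : A) : H) = u ^ n * x * (u ^ n)⁻¹ := by
    intro n
    induction n with
    | zero => intro x; simp
    | succ n ih =>
      intro x
      rw [pow_succ', MulAut.mul_apply, eα, ih, pow_succ']
      group
  obtain ⟨k, hk⟩ := h2
  have h1 : α ∈ E.autGroup A := by
    apply pElement_mem_autGroup hinv hfa hα ⟨k, ?_⟩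
    ext x
    rw [hpow, hk]
    simp
  rw [mem_autGroup_iff E hAS] at h1
  refine h1.congr (fun x hx => ?_)
  rw [autFun_apply α hx, eα]

theorem simple_of_crit3_top [Finite H] (S : Sylow 2 H)
    (h : Crit3 (S : Subgroup H)) : (groupFusionSystem (S : Subgroup H)).IsSimple 2 := by
  have : Fact (Nat.Prime 2) := ⟨Nat.prime_two⟩
  have hFsat : (groupFusionSystem (S : Subgroup H)).IsSaturated 2 := Cfsg.Agent.S5076.result 2 S
  refine ⟨hFsat, h.ne_bot, ?_⟩
  intro T E hE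
  obtain ⟨⟨hEs, -, hinvar⟩, -⟩ := hE
  have hTsc := hinvar.2.1
  by_cases hb : T = ⊥
  · exact Or.inl hb
  right
  have hTS : T = (S : Subgroup H) := by
    apply h.closed T hTsc.1 hb
    intro t ht g hgt
    have hle : Subgroup.zpowers t ≤ T := by
      rw [Subgroup.zpowers_le]; exact ht
    have hmem : conjHom (Subgroup.zpowers t) g ∈
        (groupFusionSystem (S : Subgroup H)).Hom (Subgroup.zpowers t) := by
      refine ⟨hle.trans hTsc.1, ?_, g, fun x => rfl⟩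
      rintro ⟨x, hx⟩
      obtain ⟨k, rfl⟩ := Subgroup.mem_zpowers_iff.1 hx
      show g * t ^ k * g⁻¹ ∈ (S : Subgroup H)
      rw [← conj_zpow]
      exact Subgroup.zpow_mem _ hgt k
    exact hTsc.2 _ hle _ hmem ⟨t, Subgroup.mem_zpowers t⟩
  subst hTS
  refine ⟨rfl, ?_⟩
  apply hom_eq_of_autGroup_le hinvar
  obtain ⟨A, w, τ, hx⟩ := h.extra
  -- `A` is fully automized in `F`
  have hfa : (groupFusionSystem (S : Subgroup H)).IsFullyAutomized 2 A := by
    apply Cfsg.Agent.Lib.Helper86.sat_fullyAutomized_of_fullyNormalized S.2 _ hFsat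
    refine ⟨hx.A_le, fun Q _ => ?_⟩
    have h1 : normalizerIn (S : Subgroup H) A = S := by
      apply inf_eq_left.2
      intro s hs
      rw [Subgroup.mem_normalizer_iff]
      intro a
      constructor
      · intro ha
        exact hx.normal s hs a ha
      · intro ha
        have := hx.normal s⁻¹ (inv_mem hs) _ ha
        have e : s⁻¹ * (s * a * s⁻¹) * s⁻¹⁻¹ = a := by group
        rwa [e] at this
    rw [h1]
    exact Subgroup.card_le_of_le (normalizerIn_le _ Q)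
  -- `A` is centric
  have hcen : (groupFusionSystem (S : Subgroup H)).IsCentric A := by
    refine ⟨hx.A_le, ?_⟩
    rintro Q ⟨φ, ⟨-, -, g, hg⟩, rfl⟩ x ⟨-, hxc⟩
    replace hxc : x ∈ Subgroup.centralizer ((φ.range : Subgroup H) : Set H) := hxc
    rw [Subgroup.mem_centralizer_iff] at hxc
    have h1 : g⁻¹ * x * g ∈ A := by
      apply hx.centric
      intro a ha
      have h2 := hxc (φ ⟨a, ha⟩) ⟨⟨a, ha⟩, rfl⟩
      rw [hg] at h2
      -- g a g⁻¹ * x = x * g a g⁻¹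
      have h3 : g⁻¹ * (g * a * g⁻¹ * x) * g = g⁻¹ * (x * (g * a * g⁻¹)) * g := by
        simp only at h2
        rw [h2]
      have e1 : g⁻¹ * (g * a * g⁻¹ * x) * g = a * (g⁻¹ * x * g) := by group
      have e2 : g⁻¹ * (x * (g * a * g⁻¹)) * g = g⁻¹ * x * g * a := by group
      rw [e1, e2] at h3
      exact h3.symm
    refine ⟨⟨_, h1⟩, ?_⟩
    rw [hg]
    simp only
    group
  -- `c_w` on `A`
  have hw2 : τ * (w * τ⁻¹ * w⁻¹) = w := by
    have e : τ * (w * τ⁻¹ * w⁻¹) = (τ * w * τ⁻¹) * w⁻¹ := by group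
    rw [e, hx.τw]
    have h3 : w * w * w = 1 := by
      have := hx.w_cube
      rwa [pow_succ, pow_two] at this
    calc w⁻¹ * w⁻¹ = w⁻¹ * w⁻¹ * (w * w * w) := by rw [h3, mul_one]
      _ = w := by group
  have hu' : Nz A (w * τ⁻¹ * w⁻¹) :=
    crittop_Nz_mul (crittop_Nz_mul hx.wA (crittop_Nz_inv hx.τA)) (crittop_Nz_inv hx.wA)
  have hwA : Mor E A (fun x => w * x * w⁻¹) := by
    have h1 := crittop_two hinvar hfa hx.τA hx.τ_two
    have h2 := crittop_two hinvar hfa hu' (by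
      obtain ⟨k, hk⟩ := hx.τ_two
      exact ⟨k, by rw [conj_pow, inv_pow, hk]; group⟩)
    refine (h2.comp h1 (fun x hxA => (hu' x).1 hxA)).congr (fun x _ => ?_)
    show τ * ((w * τ⁻¹ * w⁻¹) * x * (w * τ⁻¹ * w⁻¹)⁻¹) * τ⁻¹ = w * x * w⁻¹
    have e : τ * ((w * τ⁻¹ * w⁻¹) * x * (w * τ⁻¹ * w⁻¹)⁻¹) * τ⁻¹
        = (τ * (w * τ⁻¹ * w⁻¹)) * x * (τ * (w * τ⁻¹ * w⁻¹))⁻¹ := by group
    rw [e, hw2]
  have hwS : Mor E (S : Subgroup H) (fun x => w * x * w⁻¹) :=
    mor_top_of_centric S.2 hEs hFsat hinvar.1 (crittop_iso_group le_rfl w hx.wP) hcen hwA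
  have hpow : ∀ i : ℕ, Mor E (S : Subgroup H) (fun x => w ^ i * x * (w ^ i)⁻¹) := by
    intro i
    induction i with
    | zero => exact (mor_id E le_rfl).congr (fun x _ => by simp)
    | succ n ih =>
      refine (ih.comp hwS (fun x hxS => ih.mem hxS)).congr (fun x _ => ?_)
      show w * (w ^ n * x * (w ^ n)⁻¹) * w⁻¹ = w ^ (n + 1) * x * (w ^ (n + 1))⁻¹
      rw [pow_succ']; group
  intro α hα
  rw [mem_autGroup_iff E le_rfl]
  rw [mem_autGroup_iff' _ le_rfl] at hα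
  obtain ⟨-, -, g, hg⟩ := hα
  have hg' : ∀ x : (S : Subgroup H), ((α x : (S : Subgroup H)) : H) = g * (x : H) * g⁻¹ := hg
  obtain ⟨p, hp, i, hpi⟩ := hx.normN g (by
    intro s
    constructor
    · intro hs
      rw [← hg' ⟨s, hs⟩]
      exact (α ⟨s, hs⟩).2
    · intro hs
      obtain ⟨x, hx'⟩ := α.surjective ⟨_, hs⟩
      have h1 := hg' x
      rw [hx'] at h1
      have h2 : s = x := mul_left_cancel (mul_right_cancel h1)
      rw [h2]; exact x.2)
  have hcp : Mor E (S : Subgroup H) (fun x => p * x * p⁻¹) := mor_conj E le_rfl hp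
  refine (hcp.comp (hpow i) (fun x hxS => hcp.mem hxS)).congr (fun x hxS => ?_)
  rw [autFun_apply α hxS, hg', hpi x hxS]
  show w ^ i * (p * x * p⁻¹) * (w ^ i)⁻¹ = _
  group

end Cfsg.Agent.Lib.Helper47.FSP
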