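import Mathlib
import Cfsg.Agent.Lib.Helper47.FSP.Defs

/-!
Ladder FSP (S5320): the concrete matrices.
-/

set_option autoImplicit false

namespace Cfsg.Agent.Lib.Helper47.FSP

open Matrix

variable {F : Type*} [Field F]

abbrev SL2 (F : Type*) [Field F] := Matrix.SpecialLinearGroup (Fin 2) F
abbrev Sp4 (F : Type*) [Field F] := Matrix.symplecticGroup (Fin 2) F
abbrev M4 (F : Type*) [Field F] := Matrix (Fin 2 ⊕ Fin 2) (Fin 2 ⊕ Fin 2) F

/-- `J = [[0,-1],[1,0]]`. -/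
def Jm : SL2 F := ⟨!![0, -1; 1, 0], by simp [Matrix.det_fin_two_of]⟩

/-- `t = [[x,y],[y,-x]]`, `x² + y² = -1`. -/
def tm (x y : F) (h : x ^ 2 + y ^ 2 = -1) : SL2 F :=
  ⟨!![x, y; y, -x], by rw [Matrix.det_fin_two_of]; linear_combination -h⟩

/-- `-1`. -/
def zm : SL2 F := ⟨!![-1, 0; 0, -1], by simp [Matrix.det_fin_two_of]⟩

/-- `w₀ = -(1 + J + t + J t)/2`. -/
def wm (x y : F) (h : x ^ 2 + y ^ 2 = -1) (h2 : (2 : F) ≠ 0) : SL2 F :=
  ⟨!![-(1 + x - y) / 2, -(-1 + x + y) / 2; -(1 + x + y) / 2, -(1 - x + y) / 2], by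
    rw [Matrix.det_fin_two_of]; field_simp; linear_combination (-2 : F) * h⟩

/-- the matrix of `(g₁, g₂) ∈ SL₂ × SL₂` on `⟨e₀,f₀⟩ ⊥ ⟨e₁,f₁⟩`. -/
def iotaMat (g : SL2 F × SL2 F) : M4 F :=
  Matrix.fromBlocks (Matrix.diagonal ![g.1.1 0 0, g.2.1 0 0]) (Matrix.diagonal ![g.1.1 0 1, g.2.1 0 1])
    (Matrix.diagonal ![g.1.1 1 0, g.2.1 1 0]) (Matrix.diagonal ![g.1.1 1 1, g.2.1 1 1])

theorem det2 (g : SL2 F) : g.1 0 0 * g.1 1 1 - g.1 0 1 * g.1 1 0 = 1 := by
  have := g.2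
  rwa [Matrix.det_fin_two] at this

theorem iotaMat_mem (g : SL2 F × SL2 F) : iotaMat g ∈ Matrix.symplecticGroup (Fin 2) F := by
  rw [SymplecticGroup.mem_iff, iotaMat, Matrix.J, Matrix.fromBlocks_transpose,
    Matrix.fromBlocks_multiply, Matrix.fromBlocks_multiply]
  have h1 := det2 g.1
  have h2 := det2 g.2
  congr 1 <;> ext i j <;> fin_cases i <;> fin_cases j <;>
    simp <;>
    first | ring1 | linear_combination h1 | linear_combination h2 | linear_combination -h1 |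
      linear_combination -h2

theorem iotaMat_mul (g h : SL2 F × SL2 F) : iotaMat (g * h) = iotaMat g * iotaMat h := by
  rw [iotaMat, iotaMat, iotaMat, Matrix.fromBlocks_multiply]
  congr 1 <;> ext i j <;> fin_cases i <;> fin_cases j <;>
    simp [Matrix.mul_apply, Fin.sum_univ_two]

theorem iotaMat_one : iotaMat (1 : SL2 F × SL2 F) = 1 := by
  rw [iotaMat, ← Matrix.fromBlocks_one]
  congr 1 <;> ext i j <;> fin_cases i <;> fin_cases j <;> simp

/-- `SL₂ × SL₂ → Sp₄`. -/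
def iota : SL2 F × SL2 F →* Sp4 F where
  toFun g := ⟨iotaMat g, iotaMat_mem g⟩
  map_one' := Subtype.ext iotaMat_one
  map_mul' g h := Subtype.ext (iotaMat_mul g h)

theorem iota_val (g : SL2 F × SL2 F) : (iota g : M4 F) = iotaMat g := rfl

/-- the swap of the two hyperbolic planes. -/
def sigMat : M4 F := Matrix.fromBlocks !![0, 1; 1, 0] 0 0 !![0, 1; 1, 0]

theorem sigMat_mem : (sigMat : M4 F) ∈ Matrix.symplecticGroup (Fin 2) F := by
  rw [SymplecticGroup.mem_iff, sigMat, Matrix.J, Matrix.fromBlocks_transpose,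
    Matrix.fromBlocks_multiply, Matrix.fromBlocks_multiply]
  congr 1 <;> ext i j <;> fin_cases i <;> fin_cases j <;>
    simp [Matrix.vecMul, dotProduct, Fin.sum_univ_two]

def sig : Sp4 F := ⟨sigMat, sigMat_mem⟩

/-- `τ = (ι(J,J) - ι(t,t)) (ι(-1,1) + σ) / 2`. -/
def tauMat (x y : F) : M4 F :=
  Matrix.fromBlocks ((-x / 2) • !![-1, 1; 1, 1]) (((-1 - y) / 2) • !![-1, 1; 1, 1])
    (((1 - y) / 2) • !![-1, 1; 1, 1]) ((x / 2) • !![-1, 1; 1, 1])

theorem tauMat_mem (x y : F) (h : x ^ 2 + y ^ 2 = -1) (h2 : (2 : F) ≠ 0) :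
    tauMat x y ∈ Matrix.symplecticGroup (Fin 2) F := by
  rw [SymplecticGroup.mem_iff, tauMat, Matrix.J, Matrix.fromBlocks_transpose,
    Matrix.fromBlocks_multiply, Matrix.fromBlocks_multiply]
  congr 1 <;> ext i j <;> fin_cases i <;> fin_cases j <;>
    simp [Matrix.vecMul, dotProduct, Fin.sum_univ_two] <;> field_simp <;>
    first | ring1 | linear_combination h | linear_combination -h | linear_combination (2 : F) * h |
      linear_combination (-2 : F) * h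

def tau (x y : F) (h : x ^ 2 + y ^ 2 = -1) (h2 : (2 : F) ≠ 0) : Sp4 F :=
  ⟨tauMat x y, tauMat_mem x y h h2⟩

end Cfsg.Agent.Lib.Helper47.FSP
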