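import Mathlib
import Cfsg.Agent.Lib.Helper47.FSP.Defs
import Cfsg.Agent.Lib.Helper47.FSP.QBasic

/-!
Ladder FSP (S5320), rung QNA: the normaliser of `Q` in `L` when `|Q| ≥ 16`.
-/

set_option autoImplicit false

namespace Cfsg.Agent.Lib.Helper47.FSP

open Subgroup

theorem qna_Nz_of_mem {H : Type*} [Group H] {P : Subgroup H} {g : H} (hg : g ∈ P) : Nz P g := by
  intro s
  constructor
  · intro hs
    exact mul_mem (mul_mem hg hs) (inv_mem hg)
  · intro hs
    have e : s = g⁻¹ * (g * s * g⁻¹) * g := by group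
    rw [e]
    exact mul_mem (mul_mem (inv_mem hg) hs) hg

theorem qna_Nz_mul {H : Type*} [Group H] {P : Subgroup H} {g k : H} (hg : Nz P g) (hk : Nz P k) :
    Nz P (g * k) := by
  intro s
  rw [hk s, hg (k * s * k⁻¹)]
  have e : g * (k * s * k⁻¹) * g⁻¹ = g * k * s * (g * k)⁻¹ := by group
  rw [e]

theorem qna_Nz_inv {H : Type*} [Group H] {P : Subgroup H} {g : H} (hg : Nz P g) : Nz P g⁻¹ := by
  intro s
  rw [hg (g⁻¹ * s * g⁻¹⁻¹)]
  have e : g * (g⁻¹ * s * g⁻¹⁻¹) * g⁻¹ = s := by group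
  rw [e]

theorem qna_Nz_pow {H : Type*} [Group H] {P : Subgroup H} {g : H} (hg : Nz P g) (n : ℕ) :
    Nz P (g ^ n) := by
  induction n with
  | zero => rw [pow_zero]; exact qna_Nz_of_mem (one_mem _)
  | succ n ih => rw [pow_succ]; exact qna_Nz_mul ih hg

variable {L : Type*} [Group L] {J t z : L}

/-- an element of `N(Q)` centralising `J` lies in `D`. -/
theorem QuatData.qna_mem_D (h : QuatData J t z) {g : L} (hg : Nz h.Q g) (hJ : Commute g J) :
    g ∈ h.D := by
  have h1 : g * g * t ∈ h.Q := by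
    rw [← h.conj_t hJ]
    exact (hg t).1 h.t_mem_Q
  have h2 : g * g ∈ h.Q := by
    have e : g * g = g * g * t * t⁻¹ := by group
    rw [e]
    exact mul_mem h1 (inv_mem h.t_mem_Q)
  exact h.mem_D_of_sq hJ (h.mem_D_of_commute h2 (hJ.mul_left hJ))

/-- an element of `N(Q)` normalising `⟨J⟩` lies in `Q`. -/
theorem QuatData.qna_mem_Q (h : QuatData J t z) {g : L} (hg : Nz h.Q g)
    (hJ : g * J * g⁻¹ = J ∨ g * J * g⁻¹ = J⁻¹) : g ∈ h.Q := by
  rcases hJ with hJ | hJ
  · apply h.D_le_Q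
    apply h.qna_mem_D hg
    have : g * J = J * g := by
      calc g * J = g * J * g⁻¹ * g := by group
        _ = J * g := by rw [hJ]
    exact this
  · have h1 : g * t ∈ h.D := by
      apply h.qna_mem_D (qna_Nz_mul hg (qna_Nz_of_mem h.t_mem_Q))
      have : g * t * J = J * (g * t) := by
        calc g * t * J = g * (t * J * t⁻¹) * g⁻¹ * (g * t) := by group
          _ = (g * J * g⁻¹)⁻¹ * (g * t) := by rw [h.tJ]; group
          _ = J * (g * t) := by rw [hJ, inv_inv]
      exact this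
    exact Or.inr h1

theorem QuatData.normalizer_A (h : QuatData J t z) (hc : ∃ c : L, Commute c J ∧ c * c = J)
    (g : L) (hg : Nz h.Q g) : g ∈ h.Q := by
  obtain ⟨c, hcJ, hcc⟩ := hc
  have hcD : c ∈ h.D := by
    apply h.mem_D_of_sq hcJ
    rw [hcc]
    exact h.J_mem_D
  have hc' : g * c * g⁻¹ ∈ h.Q := (hg c).1 (h.D_le_Q hcD)
  have hsq : (g * c * g⁻¹) * (g * c * g⁻¹) = g * J * g⁻¹ := by
    rw [← hcc]; group
  have hc'D : g * c * g⁻¹ ∈ h.D := by
    by_contra hn
    have h1 := h.sq_of_mem_Q hc' hn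
    rw [hsq] at h1
    have h2 : J = z := by
      calc J = g⁻¹ * (g * J * g⁻¹) * g := by group
        _ = g⁻¹ * (z * g) := by rw [h1, mul_assoc]
        _ = z := by rw [h.z_comm g]; group
    apply h.z_ne
    rw [← h.J_sq, h2, h.z_sq]
  apply h.qna_mem_Q hg
  apply h.sqrt
  · rw [← hsq]
    exact hc'D.1.mul_left hc'D.1
  · calc g * J * g⁻¹ * (g * J * g⁻¹) = g * (J * J) * g⁻¹ := by group
      _ = z := by rw [h.J_sq, ← h.z_comm g]; group

end Cfsg.Agent.Lib.Helper47.FSP
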