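import Mathlib
import Cfsg.Agent.Lib.Helper47.FSP.Defs
import Cfsg.Agent.Lib.Helper47.FSP.QBasic
import Cfsg.Agent.Lib.Helper47.FSP.QNA

/-!
Ladder FSP (S5320), rung QNB: the normaliser of `Q` in `L` when `|Q| = 8`.
-/

set_option autoImplicit false

namespace Cfsg.Agent.Lib.Helper47.FSP

open Subgroup

variable {L : Type*} [Group L] {J t z : L}

theorem QuatData.qnb_aux (h : QuatData J t z) (hc : ∀ c : L, Commute c J → c * c ≠ J) (k : ℕ) :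
    ∀ d : L, Commute d J → d ^ 2 ^ k = 1 → d = 1 ∨ d = z ∨ d = J ∨ d = J⁻¹ := by
  induction k with
  | zero =>
    intro d _ hd
    left
    simpa using hd
  | succ k ih =>
    intro d hdJ hd
    have h1 : (d * d) ^ 2 ^ k = 1 := by
      rw [← pow_two, ← pow_mul, ← pow_succ']
      exact hd
    rcases ih (d * d) (hdJ.mul_left hdJ) h1 with e | e | e | e
    · rcases h.invol d e with e' | e'
      · exact Or.inl e'
      · exact Or.inr (Or.inl e')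
    · rcases h.sqrt d hdJ e with e' | e'
      · exact Or.inr (Or.inr (Or.inl e'))
      · exact Or.inr (Or.inr (Or.inr e'))
    · exact absurd e (hc d hdJ)
    · exfalso
      apply hc d⁻¹ hdJ.inv_left
      rw [← mul_inv_rev, e, inv_inv]

theorem QuatData.D_eq_B (h : QuatData J t z) (hc : ∀ c : L, Commute c J → c * c ≠ J)
    (d : L) (hd : d ∈ h.D) : d = 1 ∨ d = z ∨ d = J ∨ d = J⁻¹ := by
  obtain ⟨hdJ, k, hk⟩ := hd
  exact h.qnb_aux hc k d hdJ hk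

theorem QuatData.qnb_conj_z (h : QuatData J t z) (g : L) : g * z * g⁻¹ = z := by
  rw [← h.z_comm g]; group

theorem QuatData.qnb_fwd (h : QuatData J t z) (hc : ∀ c : L, Commute c J → c * c ≠ J) {w0 : L}
    (hwJ : w0 * J * w0⁻¹ = t) (hwt : w0 * t * w0⁻¹ = J * t) :
    ∀ s ∈ h.Q, w0 * s * w0⁻¹ ∈ h.Q := by
  have hD : ∀ d ∈ h.D, w0 * d * w0⁻¹ ∈ h.Q := by
    intro d hd
    rcases h.D_eq_B hc d hd with rfl | rfl | rfl | rfl
    · simp
    · rw [h.qnb_conj_z]; exact h.z_mem_Q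
    · rw [hwJ]; exact h.t_mem_Q
    · have : w0 * J⁻¹ * w0⁻¹ = (w0 * J * w0⁻¹)⁻¹ := by group
      rw [this, hwJ]; exact inv_mem h.t_mem_Q
  intro s hs
  rcases h.mem_Q_cases hs with h1 | ⟨d, hd, rfl⟩
  · exact hD s h1
  · have : w0 * (d * t) * w0⁻¹ = (w0 * d * w0⁻¹) * (w0 * t * w0⁻¹) := by group
    rw [this, hwt]
    exact mul_mem (hD d hd) (mul_mem h.J_mem_Q h.t_mem_Q)

theorem QuatData.Nz_w0 (h : QuatData J t z) (hc : ∀ c : L, Commute c J → c * c ≠ J) {w0 : L}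
    (hw3 : w0 ^ 3 = 1) (hwJ : w0 * J * w0⁻¹ = t) (hwt : w0 * t * w0⁻¹ = J * t) : Nz h.Q w0 := by
  have hf := h.qnb_fwd hc hwJ hwt
  intro s
  refine ⟨hf s, fun hs => ?_⟩
  have h1 := hf _ (hf _ hs)
  have e : w0 * (w0 * (w0 * s * w0⁻¹) * w0⁻¹) * w0⁻¹ = w0 ^ 3 * s * (w0 ^ 3)⁻¹ := by
    simp only [pow_succ, pow_zero, one_mul, mul_inv_rev, mul_assoc]
  rw [e, hw3] at h1
  simpa using h1

theorem QuatData.qnb_tJt (h : QuatData J t z) : t * (J * t) = J := by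
  have h1 : t * J = J⁻¹ * t := by
    calc t * J = t * J * t⁻¹ * t := by group
      _ = J⁻¹ * t := by rw [h.tJ]
  rw [← mul_assoc, h1, mul_assoc, h.t_sq, h.J_inv, mul_assoc, ← h.z_comm J, ← mul_assoc, h.z_sq,
    one_mul]

theorem QuatData.normalizer_B (h : QuatData J t z) (hc : ∀ c : L, Commute c J → c * c ≠ J) {w0 : L}
    (hw3 : w0 ^ 3 = 1) (hwJ : w0 * J * w0⁻¹ = t) (hwt : w0 * t * w0⁻¹ = J * t)
    (g : L) (hg : Nz h.Q g) : ∃ p ∈ h.Q, ∃ i : ℕ, g = w0 ^ i * p := by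
  have hw := h.Nz_w0 hc hw3 hwJ hwt
  -- reduction
  have key : ∀ i : ℕ, (g * J * g⁻¹ = w0 ^ i * J * (w0 ^ i)⁻¹ ∨
      g * J * g⁻¹ = (w0 ^ i * J * (w0 ^ i)⁻¹)⁻¹) → ∃ p ∈ h.Q, ∃ i : ℕ, g = w0 ^ i * p := by
    intro i hi
    refine ⟨(w0 ^ i)⁻¹ * g, ?_, i, by group⟩
    apply h.qna_mem_Q (qna_Nz_mul (qna_Nz_inv (qna_Nz_pow hw i)) hg)
    have e : (w0 ^ i)⁻¹ * g * J * ((w0 ^ i)⁻¹ * g)⁻¹ = (w0 ^ i)⁻¹ * (g * J * g⁻¹) * (w0 ^ i) := by
      group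
    rw [e]
    rcases hi with hi | hi
    · left; rw [hi]; group
    · right; rw [hi]; group
  have e0 : w0 ^ 0 * J * (w0 ^ 0)⁻¹ = J := by simp
  have e1 : w0 ^ 1 * J * (w0 ^ 1)⁻¹ = t := by rw [pow_one, hwJ]
  have e2 : w0 ^ 2 * J * (w0 ^ 2)⁻¹ = J * t := by
    have : w0 ^ 2 * J * (w0 ^ 2)⁻¹ = w0 * (w0 * J * w0⁻¹) * w0⁻¹ := by
      simp only [pow_succ, pow_zero, one_mul, mul_inv_rev, mul_assoc]
    rw [this, hwJ, hwt]
  have hu : g * J * g⁻¹ ∈ h.Q := (hg J).1 h.J_mem_Q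
  have husq : (g * J * g⁻¹) * (g * J * g⁻¹) = z := by
    calc g * J * g⁻¹ * (g * J * g⁻¹) = g * (J * J) * g⁻¹ := by group
      _ = z := by rw [h.J_sq, h.qnb_conj_z]
  rcases h.mem_Q_cases hu with h1 | ⟨d, hd, hdt⟩
  · rcases h.D_eq_B hc _ h1 with e | e | e | e
    · exfalso; rw [e, one_mul] at husq; exact h.z_ne husq.symm
    · exfalso; rw [e, h.z_sq] at husq; exact h.z_ne husq.symm
    · exact key 0 (Or.inl (by rw [e0, e]))
    · exact key 0 (Or.inr (by rw [e0, e]))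
  · rcases h.D_eq_B hc d hd with rfl | rfl | rfl | rfl
    · exact key 1 (Or.inl (by rw [e1, hdt, one_mul]))
    · exact key 1 (Or.inr (by rw [e1, hdt, h.t_inv]))
    · exact key 2 (Or.inl (by rw [e2, hdt]))
    · refine key 2 (Or.inr ?_)
      rw [e2, hdt, h.inv_of_sq (h.sq_dt (Commute.refl J)), h.J_inv, mul_assoc]

end Cfsg.Agent.Lib.Helper47.FSP
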