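import Mathlib
import Cfsg.Agent.Lib.Helper47.FSP.Defs

/-!
Ladder FSP (S5320), rung QUOT: `Crit3Z P Z` upstairs gives `Crit3` in the quotient by `Z`.
-/

set_option autoImplicit false

namespace Cfsg.Agent.Lib.Helper47.FSP

open Subgroup

variable {H : Type*} [Group H]

theorem quot_Nz_pow {P : Subgroup H} {w : H} (hw : Nz P w) (n : ℕ) : Nz P (w ^ n) := by
  induction n with
  | zero => intro s; simp
  | succ n ih =>
    intro s
    rw [ih s, hw (w ^ n * s * (w ^ n)⁻¹)]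
    have e : w * (w ^ n * s * (w ^ n)⁻¹) * w⁻¹ = w ^ (n + 1) * s * (w ^ (n + 1))⁻¹ := by
      rw [pow_succ']; group
    rw [e]

/-- `(u p)^n ∈ u^n P` when `u` normalises `P`. -/
theorem quot_mul_pow {P : Subgroup H} {u : H} (hu : Nz P u) {p : H} (hp : p ∈ P) (n : ℕ) :
    ∃ p' ∈ P, (u * p) ^ n = u ^ n * p' := by
  induction n with
  | zero => exact ⟨1, one_mem _, by simp⟩
  | succ n ih =>
    obtain ⟨p', hp', e⟩ := ih
    -- (u p)^(n+1) = (u p) * u^n p' = u^(n+1) * (u^-n p u^n) p'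
    have h1 : (u ^ n)⁻¹ * p * (u ^ n) ∈ P := by
      apply (quot_Nz_pow hu n _).2
      have e2 : u ^ n * ((u ^ n)⁻¹ * p * u ^ n) * (u ^ n)⁻¹ = p := by group
      rw [e2]; exact hp
    refine ⟨(u ^ n)⁻¹ * p * (u ^ n) * p', mul_mem h1 hp', ?_⟩
    rw [pow_succ', e, pow_succ']
    group

/-- 2-elements of `N(P)` lie in `P` (modulo `P`). -/
theorem ExtraZ.two {P Z A : Subgroup H} {w τ : H} (h : ExtraZ P Z A w τ) (g : H) (hg : Nz P g)
    (h2 : ∃ k : ℕ, g ^ 2 ^ k ∈ P) : g ∈ P := by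
  obtain ⟨p, hp, i, rfl⟩ := h.normN g hg
  obtain ⟨k, hk⟩ := h2
  obtain ⟨p', hp', e⟩ := quot_mul_pow (quot_Nz_pow h.wP i) hp (2 ^ k)
  rw [e] at hk
  have h1 : (w ^ i) ^ 2 ^ k ∈ P := by
    have := mul_mem hk (inv_mem hp')
    rwa [mul_inv_cancel_right] at this
  have h3 : (w ^ i) ^ 3 = 1 := by
    rw [← pow_mul, mul_comm, pow_mul, h.w_cube, one_pow]
  have hcop : Nat.Coprime (2 ^ k) 3 := Nat.Coprime.pow_left _ (by norm_num)
  have hbez := Nat.gcd_eq_gcd_ab (2 ^ k) 3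
  rw [hcop] at hbez
  have h4 : w ^ i ∈ P := by
    have e1 : w ^ i = (w ^ i) ^ ((1 : ℕ) : ℤ) := by simp
    rw [e1, hbez, zpow_add, zpow_mul, zpow_mul, zpow_natCast, zpow_natCast, h3, one_zpow, mul_one]
    exact zpow_mem h1 _
  exact mul_mem h4 hp

theorem Crit3Z.quotient {P Z : Subgroup H} [Z.Normal] (h : Crit3Z P Z) :
    Crit3 (P.map (QuotientGroup.mk' Z)) := by
  obtain ⟨A, w, τ, hx⟩ := h.extra
  set π := QuotientGroup.mk' Z with hπ
  have hker : ∀ x : H, π x = 1 ↔ x ∈ Z := fun x => QuotientGroup.eq_one_iff x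
  have hZP : Z ≤ P := hx.Z_le.trans hx.A_le
  -- membership in images
  have hmem : ∀ (B : Subgroup H), Z ≤ B → ∀ x : H, π x ∈ B.map π ↔ x ∈ B := by
    intro B hB x
    constructor
    · rintro ⟨b, hb, e⟩
      have h1 : b⁻¹ * x ∈ Z := by
        rw [← hker, map_mul, map_inv, e, inv_mul_cancel]
      have := mul_mem hb (hB h1)
      rwa [mul_inv_cancel_left] at this
    · intro hxB
      exact ⟨x, hxB, rfl⟩
  have hNz : ∀ (B : Subgroup H), Z ≤ B → ∀ g : H, Nz (B.map π) (π g) ↔ Nz B g := by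
    intro B hB g
    constructor
    · intro hg s
      have := hg (π s)
      rwa [← map_inv, ← map_mul, ← map_mul, hmem B hB, hmem B hB] at this
    · intro hg sb
      obtain ⟨s, rfl⟩ := QuotientGroup.mk'_surjective Z sb
      rw [← map_inv, ← map_mul, ← map_mul, hmem B hB, hmem B hB]
      exact hg s
  refine ⟨h.pgroup.map _, ?_, ?_, ?_, ?_⟩
  · intro hb
    apply h.ne
    apply le_antisymm _ hZP
    intro x hxP
    have h1 : π x ∈ P.map π := ⟨x, hxP, rfl⟩
    rw [hb, Subgroup.mem_bot, hker] at h1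
    exact h1
  · intro gb hg ⟨k, hk⟩
    obtain ⟨g, rfl⟩ := QuotientGroup.mk'_surjective Z gb
    rw [hmem P hZP]
    apply hx.two g ((hNz P hZP g).1 hg)
    refine ⟨k, hZP ?_⟩
    rw [← hker, map_pow, hk]
  · intro X hX hXb hcl
    have h1 : X.comap π = P := by
      apply h.closed
      · intro x hxX
        exact (hmem P hZP x).1 (hX hxX)
      · intro x hxZ
        show π x ∈ X
        rw [(hker x).2 hxZ]; exact one_mem _
      · intro e
        apply hXb
        rw [eq_bot_iff]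
        intro xb hxb
        obtain ⟨x, rfl⟩ := QuotientGroup.mk'_surjective Z xb
        have : x ∈ X.comap π := hxb
        rw [e] at this
        exact Subgroup.mem_bot.2 ((hker x).2 this)
      · intro t ht g hgt
        show π (g * t * g⁻¹) ∈ X
        rw [map_mul, map_mul, map_inv]
        apply hcl _ ht
        rw [← map_inv, ← map_mul, ← map_mul]
        exact ⟨_, hgt, rfl⟩
    apply le_antisymm hX
    rintro _ ⟨p, hp, rfl⟩
    rw [← h1] at hp
    exact hp
  · refine ⟨A.map π, π w, π τ, ?_⟩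
    refine ⟨Subgroup.map_mono hx.A_le, (hNz P hZP w).2 hx.wP, (hNz A hx.Z_le w).2 hx.wA,
      (hNz A hx.Z_le τ).2 hx.τA, ?_, ?_, ?_, ?_, ?_, ?_⟩
    · rintro _ ⟨s, hs, rfl⟩ _ ⟨a, ha, rfl⟩
      rw [← map_inv, ← map_mul, ← map_mul]
      exact ⟨_, hx.normal s hs a ha, rfl⟩
    · intro xb hxb
      obtain ⟨x, rfl⟩ := QuotientGroup.mk'_surjective Z xb
      rw [hmem A hx.Z_le]
      apply hx.centric
      intro a ha
      have h5 : π x * π a = π a * π x := hxb (π a) ⟨a, ha, rfl⟩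
      rw [← hker, map_mul, map_mul, map_mul, map_inv, map_inv, h5]
      group
    · obtain ⟨k, hk⟩ := hx.τ_two
      exact ⟨k, by rw [← map_pow, hk, map_one]⟩
    · rw [← map_inv, ← map_mul, ← map_mul, hx.τw, map_inv]
    · rw [← map_pow, hx.w_cube, map_one]
    · intro gb hg
      obtain ⟨g, rfl⟩ := QuotientGroup.mk'_surjective Z gb
      obtain ⟨p, hp, i, e⟩ := hx.normN g ((hNz P hZP g).1 hg)
      refine ⟨π p, ⟨p, hp, rfl⟩, i, fun s _ => ?_⟩
      rw [e, map_mul, map_pow]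

end Cfsg.Agent.Lib.Helper47.FSP
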