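import Mathlib
import Cfsg.Agent.Lib.Helper47.FSP.Defs
import Cfsg.Agent.Lib.Helper47.FSP.Mat

set_option autoImplicit false
set_option linter.unusedSimpArgs false

namespace Cfsg.Agent.Lib.Helper47.FSP

open Subgroup Matrix

variable {F : Type*} [Field F]

theorem slq1_ext (a b : SL2 F) (h00 : a.1 0 0 = b.1 0 0) (h01 : a.1 0 1 = b.1 0 1)
    (h10 : a.1 1 0 = b.1 1 0) (h11 : a.1 1 1 = b.1 1 1) : a = b := by
  apply Subtype.ext
  ext i j
  fin_cases i <;> fin_cases j
  · exact h00
  · exact h01
  · exact h10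
  · exact h11

theorem slq1_inv_val (d : SL2 F) : (d⁻¹).1 = !![d.1 1 1, - d.1 0 1; - d.1 1 0, d.1 0 0] := by
  rw [Matrix.SpecialLinearGroup.coe_inv, Matrix.adjugate_fin_two]

theorem slq1_mul_val (a b : SL2 F) : (a * b).1 = a.1 * b.1 := rfl

/-- the centraliser of `J` -/
theorem slq1_commute_iff (d : SL2 F) :
    Commute d (Jm : SL2 F) ↔ d.1 1 1 = d.1 0 0 ∧ d.1 0 1 = - d.1 1 0 := by
  constructor
  · intro h
    have h' : d.1 * (Jm : SL2 F).1 = (Jm : SL2 F).1 * d.1 := congrArg Subtype.val h.eq
    have e00 := congrFun (congrFun h' 0) 0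
    have e01 := congrFun (congrFun h' 0) 1
    simp [Jm, Matrix.mul_apply, Fin.sum_univ_two] at e00 e01
    exact ⟨e01.symm, e00⟩
  · rintro ⟨h1, h2⟩
    apply slq1_ext <;> (try simp only [slq1_mul_val, slq1_inv_val]) <;>
      simp [Jm, Matrix.mul_apply, Fin.sum_univ_two, h1, h2]

theorem quatData_SL2_of_fus (h2 : (2 : F) ≠ 0) (x y : F) (h : x ^ 2 + y ^ 2 = -1)
    (hfus : ∀ u : SL2 F, u * u = zm → ∃ g : SL2 F, g * Jm * g⁻¹ = u) :
    QuatData (Jm : SL2 F) (tm x y h) zm where
  z_mem := by
    rw [mem_center_iff]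
    intro g
    apply slq1_ext <;> (try simp only [slq1_mul_val, slq1_inv_val]) <;> simp [zm, Matrix.mul_apply, Fin.sum_univ_two]
  z_ne := by
    intro h0
    have := congrFun (congrFun (congrArg Subtype.val h0) 0) 0
    simp [zm] at this
    apply h2
    linear_combination -this
  z_sq := by
    apply slq1_ext <;> (try simp only [slq1_mul_val, slq1_inv_val]) <;> simp [zm, Matrix.mul_apply, Fin.sum_univ_two]
  J_sq := by
    apply slq1_ext <;> (try simp only [slq1_mul_val, slq1_inv_val]) <;> simp [zm, Jm, Matrix.mul_apply, Fin.sum_univ_two]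
  t_sq := by
    apply slq1_ext <;> (try simp only [slq1_mul_val, slq1_inv_val]) <;> simp [zm, tm, Matrix.mul_apply, Fin.sum_univ_two]
    · linear_combination h
    · ring
    · ring
    · linear_combination h
  inv := by
    intro d hd
    obtain ⟨h1, h3⟩ := (slq1_commute_iff d).1 hd
    rw [mul_inv_eq_iff_eq_mul]
    apply slq1_ext <;> (try simp only [slq1_mul_val, slq1_inv_val]) <;>
      simp [tm, Matrix.mul_apply, Fin.sum_univ_two, h1, h3] <;> ring
  comm := by
    intro a b ha hb
    obtain ⟨a1, a2⟩ := (slq1_commute_iff a).1 ha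
    obtain ⟨b1, b2⟩ := (slq1_commute_iff b).1 hb
    apply slq1_ext <;> (try simp only [slq1_mul_val, slq1_inv_val]) <;>
      simp [Matrix.mul_apply, Fin.sum_univ_two, a1, a2, b1, b2] <;> ring
  sqrt := by
    intro a ha hsq
    obtain ⟨a1, a2⟩ := (slq1_commute_iff a).1 ha
    have hsq' : a.1 * a.1 = !![-1, 0; 0, -1] := congrArg Subtype.val hsq
    have e00 := congrFun (congrFun hsq' 0) 0
    have e10 := congrFun (congrFun hsq' 1) 0
    simp [Matrix.mul_apply, Fin.sum_univ_two, a1, a2] at e00 e10
    have hdet := det2 a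
    rw [a1, a2] at hdet
    -- p^2 - r^2 = -1, p^2 + r^2 = 1, so p = 0 and r^2 = 1
    have hp : a.1 0 0 = 0 := by
      have : (2 : F) * (a.1 0 0 * a.1 0 0) = 0 := by linear_combination e00 + hdet
      have h3 := (mul_eq_zero.1 this).resolve_left h2
      exact mul_self_eq_zero.1 h3
    have hr : (a.1 1 0 - 1) * (a.1 1 0 + 1) = 0 := by
      rw [hp] at hdet
      linear_combination hdet
    rcases mul_eq_zero.1 hr with h3 | h3
    · left
      have h4 : a.1 1 0 = 1 := by linear_combination h3
      apply slq1_ext <;> simp [Jm, a1, a2, hp, h4]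
    · right
      have h4 : a.1 1 0 = -1 := by linear_combination h3
      apply slq1_ext <;> (try simp only [slq1_mul_val, slq1_inv_val]) <;> simp [Jm, a1, a2, hp, h4]
  invol := by
    intro a hsq
    have hsq' : a.1 * a.1 = 1 := congrArg Subtype.val hsq
    have e00 := congrFun (congrFun hsq' 0) 0
    have e01 := congrFun (congrFun hsq' 0) 1
    have e10 := congrFun (congrFun hsq' 1) 0
    have e11 := congrFun (congrFun hsq' 1) 1
    simp [Matrix.mul_apply, Fin.sum_univ_two] at e00 e01 e10 e11
    have hdet := det2 a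
    -- a = a⁻¹ gives a11 = a00, a01 = a10 = 0
    have h5 : a = a⁻¹ := eq_inv_of_mul_eq_one_left hsq
    have h6 : a.1 = !![a.1 1 1, - a.1 0 1; - a.1 1 0, a.1 0 0] := by
      conv_lhs => rw [h5]
      exact slq1_inv_val a
    have f00 := congrFun (congrFun h6 0) 0
    have f01 := congrFun (congrFun h6 0) 1
    have f10 := congrFun (congrFun h6 1) 0
    simp at f00 f01 f10
    have hb : a.1 0 1 = 0 := by
      have : (2 : F) * a.1 0 1 = 0 := by linear_combination f01
      exact (mul_eq_zero.1 this).resolve_left h2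
    have hc : a.1 1 0 = 0 := by
      have : (2 : F) * a.1 1 0 = 0 := by linear_combination f10
      exact (mul_eq_zero.1 this).resolve_left h2
    have hr : (a.1 0 0 - 1) * (a.1 0 0 + 1) = 0 := by
      rw [hb] at e00
      linear_combination e00
    rcases mul_eq_zero.1 hr with h3 | h3
    · left
      have h4 : a.1 0 0 = 1 := by linear_combination h3
      apply slq1_ext <;> simp [hb, hc, h4, ← f00]
    · right
      have h4 : a.1 0 0 = -1 := by linear_combination h3
      apply slq1_ext <;> simp [zm, hb, hc, h4, ← f00]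
  fus := hfus

end Cfsg.Agent.Lib.Helper47.FSP
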