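import Mathlib
import Cfsg.Agent.Lib.Helper47.FSP.Defs
import Cfsg.Agent.Lib.Helper47.FSP.Mat

set_option autoImplicit false

namespace Cfsg.Agent.Lib.Helper47.FSP

open Subgroup Matrix

variable {F : Type*} [Field F]

theorem slq2_sum_two_sq [Fintype F] (h2 : (2 : F) ≠ 0) (c : F) : ∃ a b : F, c = a ^ 2 + b ^ 2 := by
  classical
  have hch : ringChar F ≠ 2 := by
    intro h
    apply h2
    have := CharP.cast_eq_zero F (ringChar F)
    rw [h] at this
    exact_mod_cast this
  have hodd : Fintype.card F % 2 = 1 := FiniteField.odd_card_of_char_ne_two hch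
  obtain ⟨a, b, hab⟩ := FiniteField.exists_root_sum_quadratic (R := F)
    (f := Polynomial.X ^ 2) (g := Polynomial.X ^ 2 - Polynomial.C c)
    (Polynomial.degree_X_pow 2) (Polynomial.degree_X_pow_sub_C (by norm_num) c) hodd
  refine ⟨a, b, ?_⟩
  simp only [Polynomial.eval_pow, Polynomial.eval_X, Polynomial.eval_sub, Polynomial.eval_C] at hab
  linear_combination -hab

/-- entries of an element of square `-1` -/
theorem slq2_entries (u : SL2 F) (hu : u * u = zm) :
    u.1 1 1 = - u.1 0 0 ∧ u.1 0 0 * u.1 0 0 + u.1 0 1 * u.1 1 0 = -1 := by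
  have hu' : (u.1 * u.1) = !![-1, 0; 0, -1] := congrArg Subtype.val hu
  have e00 := congrFun (congrFun hu' 0) 0
  have e01 := congrFun (congrFun hu' 0) 1
  have e10 := congrFun (congrFun hu' 1) 0
  have e11 := congrFun (congrFun hu' 1) 1
  simp [Matrix.mul_apply, Fin.sum_univ_two] at e00 e01 e10 e11
  have hdet := det2 u
  generalize u.1 0 0 = a at *
  generalize u.1 0 1 = b at *
  generalize u.1 1 0 = c at *
  generalize u.1 1 1 = d at *
  refine ⟨?_, e00⟩
  by_contra hne
  have hs : a + d ≠ 0 := fun h => hne (by linear_combination h)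
  have ha : a = 0 := by
    have : a * (a + d) = 0 := by linear_combination e00 + hdet
    exact (mul_eq_zero.1 this).resolve_right hs
  have hb : b = 0 := by
    have : b * (a + d) = 0 := by linear_combination e01
    exact (mul_eq_zero.1 this).resolve_right hs
  rw [ha, hb] at hdet
  simp at hdet

theorem fus_SL2 [Fintype F] (h2 : (2 : F) ≠ 0) (u : SL2 F) (hu : u * u = zm) :
    ∃ g : SL2 F, g * Jm * g⁻¹ = u := by
  obtain ⟨hd, e00⟩ := slq2_entries u hu
  -- find the first column
  obtain ⟨p, r, hpr⟩ : ∃ p r : F,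
      u.1 1 0 * p ^ 2 - 2 * u.1 0 0 * p * r - u.1 0 1 * r ^ 2 = 1 := by
    by_cases hc : u.1 1 0 = 0
    · have ha : u.1 0 0 ≠ 0 := by
        intro h0
        rw [h0, hc] at e00
        simp at e00
      refine ⟨-(1 + u.1 0 1) / (2 * u.1 0 0), 1, ?_⟩
      rw [hc]
      field_simp
      ring
    · obtain ⟨X, r, hX⟩ := slq2_sum_two_sq h2 (u.1 1 0)
      refine ⟨(X + u.1 0 0 * r) / u.1 1 0, r, ?_⟩
      field_simp
      linear_combination (-r ^ 2) * e00 - hX
  let g : SL2 F := ⟨!![p, u.1 0 0 * p + u.1 0 1 * r; r, u.1 1 0 * p - u.1 0 0 * r], by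
    rw [Matrix.det_fin_two_of]; linear_combination hpr⟩
  refine ⟨g, ?_⟩
  rw [mul_inv_eq_iff_eq_mul]
  apply Subtype.ext
  show g.1 * (Jm : SL2 F).1 = u.1 * g.1
  ext i j
  fin_cases i <;> fin_cases j <;>
    simp [g, Jm, Matrix.mul_apply, Fin.sum_univ_two, hd]
  · linear_combination (-p) * e00
  · ring
  · linear_combination (-r) * e00

end Cfsg.Agent.Lib.Helper47.FSP
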