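import Mathlib
import Cfsg.Agent.Lib.Helper47.FSP.Defs
import Cfsg.Agent.Lib.Helper47.FSP.Mat

set_option autoImplicit false
set_option linter.unusedSimpArgs false

namespace Cfsg.Agent.Lib.Helper47.FSP

open Subgroup Matrix

variable {F : Type*} [Field F]

theorem slw_ext (a b : SL2 F) (h00 : a.1 0 0 = b.1 0 0) (h01 : a.1 0 1 = b.1 0 1)
    (h10 : a.1 1 0 = b.1 1 0) (h11 : a.1 1 1 = b.1 1 1) : a = b := by
  apply Subtype.ext
  ext i j
  fin_cases i <;> fin_cases j
  · exact h00
  · exact h01
  · exact h10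
  · exact h11

theorem slw_mul_val (a b : SL2 F) : (a * b).1 = a.1 * b.1 := rfl

theorem slw_sq (x y : F) (h : x ^ 2 + y ^ 2 = -1) (h2 : (2 : F) ≠ 0) :
    (wm x y h h2).1 * (wm x y h h2).1 = - (wm x y h h2).1 - 1 := by
  ext i j
  fin_cases i <;> fin_cases j <;>
    simp [wm, Matrix.mul_apply, Fin.sum_univ_two] <;> field_simp <;>
    first
      | ring1
      | linear_combination h
      | linear_combination -h
      | linear_combination (2 : F) * h
      | linear_combination (-2 : F) * h
      | linear_combination (4 : F) * h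
      | linear_combination (-4 : F) * h

theorem wm_cube (x y : F) (h : x ^ 2 + y ^ 2 = -1) (h2 : (2 : F) ≠ 0) : wm x y h h2 ^ 3 = 1 := by
  rw [pow_succ, pow_two]
  apply Subtype.ext
  show (wm x y h h2).1 * (wm x y h h2).1 * (wm x y h h2).1 = 1
  rw [slw_sq, sub_mul, neg_mul, slw_sq, one_mul]
  abel

theorem wm_J (x y : F) (h : x ^ 2 + y ^ 2 = -1) (h2 : (2 : F) ≠ 0) :
    wm x y h h2 * Jm * (wm x y h h2)⁻¹ = tm x y h := by
  rw [mul_inv_eq_iff_eq_mul]
  apply slw_ext <;> simp only [slw_mul_val] <;>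
    simp [wm, Jm, tm, Matrix.mul_apply, Fin.sum_univ_two] <;> field_simp <;>
    first
      | ring1
      | linear_combination h
      | linear_combination -h
      | skip

theorem wm_t (x y : F) (h : x ^ 2 + y ^ 2 = -1) (h2 : (2 : F) ≠ 0) :
    wm x y h h2 * tm x y h * (wm x y h h2)⁻¹ = Jm * tm x y h := by
  rw [mul_inv_eq_iff_eq_mul]
  apply slw_ext <;> simp only [slw_mul_val] <;>
    simp [wm, Jm, tm, Matrix.mul_apply, Fin.sum_univ_two] <;> field_simp <;>
    first
      | ring1
      | linear_combination h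
      | linear_combination -h
      | skip

end Cfsg.Agent.Lib.Helper47.FSP
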