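import Mathlib
import Cfsg.Agent.Lib.Helper47.FSP.Defs
import Cfsg.Agent.Lib.Helper47.FSP.Mat
import Cfsg.Agent.Lib.Helper43.PSpRank

set_option autoImplicit false
set_option linter.unusedSimpArgs false

namespace Cfsg.Agent.Lib.Helper47.FSP

open Subgroup Matrix

variable {F : Type*} [Field F]

theorem spc_z1 : iotaMat ((zm, 1) : SL2 F × SL2 F) =
    Matrix.diagonal (Sum.elim ![-1, 1] ![-1, 1]) := by
  rw [← Matrix.fromBlocks_diagonal, iotaMat]
  congr 1 <;> ext i j <;> fin_cases i <;> fin_cases j <;> simp [zm]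

theorem spc_zz : iotaMat ((zm, zm) : SL2 F × SL2 F) = -1 := by
  rw [iotaMat, ← Matrix.fromBlocks_one, Matrix.fromBlocks_neg]
  congr 1 <;> ext i j <;> fin_cases i <;> fin_cases j <;> simp [zm]

theorem cent_z1 (h2 : (2 : F) ≠ 0) (g : Sp4 F) (hg : g * iota (zm, 1) = iota (zm, 1) * g) :
    ∃ a b : SL2 F, g = iota (a, b) := by
  have hc : g.1 * iotaMat ((zm, 1) : SL2 F × SL2 F) = iotaMat ((zm, 1) : SL2 F × SL2 F) * g.1 :=
    congrArg Subtype.val hg
  rw [spc_z1] at hc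
  have key : ∀ i j, g.1 i j * (Sum.elim ![-1, 1] ![-1, 1] : Fin 2 ⊕ Fin 2 → F) j =
      (Sum.elim ![-1, 1] ![-1, 1] : Fin 2 ⊕ Fin 2 → F) i * g.1 i j := by
    intro i j
    have := congrFun (congrFun hc i) j
    rwa [Matrix.mul_diagonal, Matrix.diagonal_mul] at this
  have hz : ∀ v : F, v * 1 = -1 * v → v = 0 := by
    intro v hv
    have : (2 : F) * v = 0 := by linear_combination hv
    exact (mul_eq_zero.1 this).resolve_left h2
  have hz' : ∀ v : F, v * -1 = 1 * v → v = 0 := by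
    intro v hv
    have : (2 : F) * v = 0 := by linear_combination -hv
    exact (mul_eq_zero.1 this).resolve_left h2
  have z1 : g.1 (Sum.inl 0) (Sum.inl 1) = 0 := hz _ (by simpa using key (Sum.inl 0) (Sum.inl 1))
  have z2 : g.1 (Sum.inl 1) (Sum.inl 0) = 0 := hz' _ (by simpa using key (Sum.inl 1) (Sum.inl 0))
  have z3 : g.1 (Sum.inl 0) (Sum.inr 1) = 0 := hz _ (by simpa using key (Sum.inl 0) (Sum.inr 1))
  have z4 : g.1 (Sum.inl 1) (Sum.inr 0) = 0 := hz' _ (by simpa using key (Sum.inl 1) (Sum.inr 0))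
  have z5 : g.1 (Sum.inr 0) (Sum.inl 1) = 0 := hz _ (by simpa using key (Sum.inr 0) (Sum.inl 1))
  have z6 : g.1 (Sum.inr 1) (Sum.inl 0) = 0 := hz' _ (by simpa using key (Sum.inr 1) (Sum.inl 0))
  have z7 : g.1 (Sum.inr 0) (Sum.inr 1) = 0 := hz _ (by simpa using key (Sum.inr 0) (Sum.inr 1))
  have z8 : g.1 (Sum.inr 1) (Sum.inr 0) = 0 := hz' _ (by simpa using key (Sum.inr 1) (Sum.inr 0))
  have hsp := SymplecticGroup.mem_iff.1 g.2
  have d0 := congrFun (congrFun hsp (Sum.inl 0)) (Sum.inr 0)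
  have d1 := congrFun (congrFun hsp (Sum.inl 1)) (Sum.inr 1)
  simp [Matrix.mul_apply, Fintype.sum_sum_type, Fin.sum_univ_two, Matrix.J, z1, z2, z3, z4, z5, z6,
    z7, z8, Matrix.one_apply] at d0 d1
  refine ⟨⟨!![g.1 (Sum.inl 0) (Sum.inl 0), g.1 (Sum.inl 0) (Sum.inr 0);
      g.1 (Sum.inr 0) (Sum.inl 0), g.1 (Sum.inr 0) (Sum.inr 0)], ?_⟩,
    ⟨!![g.1 (Sum.inl 1) (Sum.inl 1), g.1 (Sum.inl 1) (Sum.inr 1);
      g.1 (Sum.inr 1) (Sum.inl 1), g.1 (Sum.inr 1) (Sum.inr 1)], ?_⟩, ?_⟩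
  · rw [Matrix.det_fin_two_of]; linear_combination -d0
  · rw [Matrix.det_fin_two_of]; linear_combination -d1
  · apply Subtype.ext
    show g.1 = iotaMat _
    ext i j
    rcases i with i | i <;> rcases j with j | j <;> fin_cases i <;> fin_cases j <;>
      simp [iotaMat, z1, z2, z3, z4, z5, z6, z7, z8]

theorem center_Sp4 (c : Sp4 F) : c ∈ Subgroup.center (Sp4 F) ↔ c = 1 ∨ c = iota (zm, zm) := by
  constructor
  · intro hc
    rcases Cfsg.Agent.Lib.Helper43.sp_center_coe 2 c hc with h | h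
    · left; exact Subtype.ext h
    · right
      apply Subtype.ext
      rw [h]
      exact spc_zz.symm
  · rintro (rfl | rfl)
    · exact Subgroup.one_mem _
    · rw [Subgroup.mem_center_iff]
      intro g
      apply Subtype.ext
      show g.1 * iotaMat ((zm, zm) : SL2 F × SL2 F) = iotaMat ((zm, zm) : SL2 F × SL2 F) * g.1
      rw [spc_zz]
      simp

end Cfsg.Agent.Lib.Helper47.FSP
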