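import Mathlib
import Cfsg.Agent.Lib.Helper47.FSP.Defs
import Cfsg.Agent.Lib.Helper47.FSP.Mat

set_option autoImplicit false
set_option linter.unusedSimpArgs false

namespace Cfsg.Agent.Lib.Helper47.FSP

open Subgroup Matrix

variable {F : Type*} [Field F]

theorem spi_ext (a b : SL2 F) (h00 : a.1 0 0 = b.1 0 0) (h01 : a.1 0 1 = b.1 0 1)
    (h10 : a.1 1 0 = b.1 1 0) (h11 : a.1 1 1 = b.1 1 1) : a = b := by
  apply Subtype.ext
  ext i j
  fin_cases i <;> fin_cases j
  · exact h00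
  · exact h01
  · exact h10
  · exact h11

theorem iota_injective : Function.Injective (iota : SL2 F × SL2 F →* Sp4 F) := by
  rintro ⟨a, b⟩ ⟨a', b'⟩ h
  have h' : iotaMat (a, b) = iotaMat (a', b') := congrArg Subtype.val h
  have e : ∀ i j, iotaMat (a, b) i j = iotaMat (a', b') i j := fun i j => by rw [h']
  have a00 := e (Sum.inl 0) (Sum.inl 0)
  have b00 := e (Sum.inl 1) (Sum.inl 1)
  have a01 := e (Sum.inl 0) (Sum.inr 0)
  have b01 := e (Sum.inl 1) (Sum.inr 1)
  have a10 := e (Sum.inr 0) (Sum.inl 0)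
  have b10 := e (Sum.inr 1) (Sum.inl 1)
  have a11 := e (Sum.inr 0) (Sum.inr 0)
  have b11 := e (Sum.inr 1) (Sum.inr 1)
  simp [iotaMat] at a00 b00 a01 b01 a10 b10 a11 b11
  rw [Prod.mk.injEq]
  exact ⟨spi_ext _ _ a00 a01 a10 a11, spi_ext _ _ b00 b01 b10 b11⟩

theorem sig_sq : (sig : Sp4 F) * sig = 1 := by
  apply Subtype.ext
  show (sigMat : M4 F) * sigMat = 1
  rw [sigMat, Matrix.fromBlocks_multiply, ← Matrix.fromBlocks_one]
  congr 1 <;> ext i j <;> fin_cases i <;> fin_cases j <;>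
    simp [Matrix.mul_apply, Fin.sum_univ_two]

theorem sig_conj (a b : SL2 F) : sig * iota (a, b) * sig⁻¹ = iota (b, a) := by
  rw [mul_inv_eq_iff_eq_mul]
  apply Subtype.ext
  show (sigMat : M4 F) * iotaMat (a, b) = iotaMat (b, a) * sigMat
  rw [sigMat, iotaMat, iotaMat, Matrix.fromBlocks_multiply, Matrix.fromBlocks_multiply]
  congr 1 <;> ext i j <;> fin_cases i <;> fin_cases j <;>
    simp [Matrix.mul_apply, Fin.sum_univ_two, Matrix.vecMul, dotProduct, Matrix.diagonal_apply]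

end Cfsg.Agent.Lib.Helper47.FSP
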