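import Mathlib
import Cfsg.Agent.Lib.Helper47.FSP.Defs
import Cfsg.Agent.Lib.Helper47.FSP.QBasic
import Cfsg.Agent.Lib.Helper47.FSP.Mat

/-!
Ladder FSP (S5320), rung SPT: the relations of `τ`.
-/

set_option autoImplicit false
set_option linter.unusedSimpArgs false
set_option linter.unreachableTactic false
set_option linter.unusedTactic false

namespace Cfsg.Agent.Lib.Helper47.FSP

open Matrix

variable {F : Type*} [Field F]

theorem spt_m1 (x y : F) : tauMat x y * iotaMat ((zm : SL2 F), 1) = sigMat * tauMat x y := by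
  rw [tauMat, iotaMat, sigMat, Matrix.fromBlocks_multiply, Matrix.fromBlocks_multiply]
  congr 1 <;> ext i j <;> fin_cases i <;> fin_cases j <;>
    simp [zm, Matrix.vecMul, dotProduct, Fin.sum_univ_two, Matrix.mul_apply]

theorem spt_m2 (x y : F) (h : x ^ 2 + y ^ 2 = -1) (h2 : (2 : F) ≠ 0) :
    tauMat x y * tauMat x y = iotaMat ((zm : SL2 F), zm) := by
  rw [tauMat, iotaMat, Matrix.fromBlocks_multiply]
  congr 1 <;> ext i j <;> fin_cases i <;> fin_cases j <;>
    simp [zm, Matrix.vecMul, dotProduct, Fin.sum_univ_two, Matrix.mul_apply] <;> field_simp <;>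
    first | ring1 | linear_combination h | linear_combination -h | linear_combination (2 : F) * h |
      linear_combination (-2 : F) * h

theorem spt_m3 (x y : F) (h : x ^ 2 + y ^ 2 = -1) (h2 : (2 : F) ≠ 0) :
    iotaMat (tm x y h, tm x y h) * tauMat x y * iotaMat ((Jm : SL2 F), Jm) = tauMat x y := by
  rw [tauMat, iotaMat, iotaMat, Matrix.fromBlocks_multiply, Matrix.fromBlocks_multiply]
  congr 1 <;> ext i j <;> fin_cases i <;> fin_cases j <;>
    simp [tm, Jm, Matrix.vecMul, dotProduct, Fin.sum_univ_two, Matrix.mul_apply] <;> field_simp <;>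
    first | ring1 | linear_combination h | linear_combination -h | linear_combination (2 : F) * h |
      linear_combination (-2 : F) * h

theorem spt_m4 (x y : F) (h : x ^ 2 + y ^ 2 = -1) (h2 : (2 : F) ≠ 0) :
    iotaMat ((Jm : SL2 F), Jm) * tauMat x y * iotaMat (tm x y h, tm x y h) = tauMat x y := by
  rw [tauMat, iotaMat, iotaMat, Matrix.fromBlocks_multiply, Matrix.fromBlocks_multiply]
  congr 1 <;> ext i j <;> fin_cases i <;> fin_cases j <;>
    simp [tm, Jm, Matrix.vecMul, dotProduct, Fin.sum_univ_two, Matrix.mul_apply] <;> field_simp <;>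
    first | ring1 | linear_combination h | linear_combination -h | linear_combination (2 : F) * h |
      linear_combination (-2 : F) * h

set_option maxHeartbeats 1600000 in
theorem spt_m5 (x y : F) (h : x ^ 2 + y ^ 2 = -1) (h2 : (2 : F) ≠ 0) :
    iotaMat (wm x y h h2, wm x y h h2) * tauMat x y * iotaMat (wm x y h h2, wm x y h h2)
      = tauMat x y := by
  rw [tauMat, iotaMat, Matrix.fromBlocks_multiply, Matrix.fromBlocks_multiply]
  congr 1 <;> ext i j <;> fin_cases i <;> fin_cases j <;>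
    simp [wm, Matrix.vecMul, dotProduct, Fin.sum_univ_two, Matrix.mul_apply] <;> field_simp <;>
    first | ring1 | grind

theorem spt_conj {G : Type*} [Group G] {a b c : G} (h : c * a * b = a) : a * b * a⁻¹ = c⁻¹ := by
  have : a * b = c⁻¹ * a := by
    calc a * b = c⁻¹ * (c * a * b) := by group
      _ = c⁻¹ * a := by rw [h]
  rw [this]; group

theorem tau_z (x y : F) (h : x ^ 2 + y ^ 2 = -1) (h2 : (2 : F) ≠ 0) :
    tau x y h h2 * iota (zm, 1) * (tau x y h h2)⁻¹ = sig := by
  rw [mul_inv_eq_iff_eq_mul]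
  exact Subtype.ext (spt_m1 x y)

theorem tau_sq (x y : F) (h : x ^ 2 + y ^ 2 = -1) (h2 : (2 : F) ≠ 0) :
    tau x y h h2 * tau x y h h2 = iota (zm, zm) :=
  Subtype.ext (spt_m2 x y h h2)

theorem tau_J (x y : F) (h : x ^ 2 + y ^ 2 = -1) (h2 : (2 : F) ≠ 0) :
    tau x y h h2 * iota (Jm, Jm) * (tau x y h h2)⁻¹ = iota ((tm x y h)⁻¹, (tm x y h)⁻¹) := by
  rw [← WrData.ι_inv]
  exact spt_conj (Subtype.ext (spt_m3 x y h h2))

theorem tau_t (x y : F) (h : x ^ 2 + y ^ 2 = -1) (h2 : (2 : F) ≠ 0) :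
    tau x y h h2 * iota (tm x y h, tm x y h) * (tau x y h h2)⁻¹ = iota (Jm⁻¹, Jm⁻¹) := by
  rw [← WrData.ι_inv]
  exact spt_conj (Subtype.ext (spt_m4 x y h h2))

theorem tau_w (x y : F) (h : x ^ 2 + y ^ 2 = -1) (h2 : (2 : F) ≠ 0) :
    tau x y h h2 * iota (wm x y h h2, wm x y h h2) * (tau x y h h2)⁻¹
      = iota ((wm x y h h2)⁻¹, (wm x y h h2)⁻¹) := by
  rw [← WrData.ι_inv]
  exact spt_conj (Subtype.ext (spt_m5 x y h h2))

end Cfsg.Agent.Lib.Helper47.FSP
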