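import Mathlib
import Cfsg.Agent.Lib.Helper47.FSP.Defs
import Cfsg.Agent.Lib.Helper47.FSP.QBasic

/-!
Ladder FSP (S5320), rung WRC2: a strongly closed subgroup of `Q ≀ 2` containing `ι(z,1)` is everything.
-/

set_option autoImplicit false

namespace Cfsg.Agent.Lib.Helper47.FSP

open Subgroup

variable {L H : Type*} [Group L] [Group H] {J t z : L} {ι : L × L →* H} {σ τ : H}

theorem WrData.eq_PP_of_z1 (h : WrData J t z ι σ τ) (X : Subgroup H) (hX : X ≤ h.PP)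
    (hz : ι (z, 1) ∈ X)
    (hcl : ∀ s ∈ X, ∀ g : H, g * s * g⁻¹ ∈ h.PP → g * s * g⁻¹ ∈ X) : X = h.PP := by
  have hσ : σ ∈ X := by
    have := hcl _ hz τ (by rw [h.τ_z]; exact h.σ_mem_PP)
    rwa [h.τ_z] at this
  have hn : ∀ s ∈ X, ∀ g ∈ h.PP, g * s * g⁻¹ ∈ X := fun s hs g hg =>
    hcl s hs g (mul_mem (mul_mem hg (hX hs)) (inv_mem hg))
  have h1 : ∀ u ∈ h.quat.Q, ι (u, u⁻¹) ∈ X := by
    intro u hu
    have h2 := hn σ hσ (ι (u, 1)) (h.ι_mem_PP hu (one_mem _))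
    have e : ι (u, 1) * σ * (ι (u, 1))⁻¹ = ι (u, u⁻¹) * σ := by
      rw [WrData.ι_inv, mul_assoc, h.σ_mul, ← mul_assoc, WrData.ι_mul]; simp
    rw [e] at h2
    have := mul_mem h2 hσ
    rwa [mul_assoc, h.σ_sq, mul_one] at this
  have h3 : ∀ v ∈ h.quat.Q, v * v = z → ι (1, v * J) ∈ X := by
    intro v hv hvv
    have hvi : v⁻¹ * v⁻¹ = z := by rw [← mul_inv_rev, hvv, h.quat.z_inv]
    obtain ⟨g, hg⟩ := h.quat.fus v⁻¹ hvi
    have hg' : g * J⁻¹ * g⁻¹ = v := by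
      have : (g * J * g⁻¹)⁻¹ = v := by rw [hg, inv_inv]
      rw [← this]; group
    have e : ι (1, g) * ι (J, J⁻¹) * (ι (1, g))⁻¹ = ι (J, v) := by
      rw [WrData.ι_conj, hg']; simp
    have h4 := hcl _ (h1 J h.quat.J_mem_Q) (ι (1, g)) (by
      rw [e]; exact h.ι_mem_PP h.quat.J_mem_Q hv)
    rw [e] at h4
    have h5 := mul_mem h4 (inv_mem (h1 J h.quat.J_mem_Q))
    rw [WrData.ι_inv, WrData.ι_mul, mul_inv_cancel, inv_inv] at h5
    exact h5
  have h4 : ∀ d ∈ h.quat.D, ι (1, d * t * J) ∈ X := fun d hd =>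
    h3 _ (h.quat.dt_mem_Q hd) (h.quat.sq_dt hd.1)
  have h5 : ∀ d ∈ h.quat.D, ι (1, d) ∈ X := by
    intro d hd
    have := mul_mem (h4 d hd) (inv_mem (h4 1 (one_mem _)))
    rw [WrData.ι_inv, WrData.ι_mul] at this
    have e : d * t * J * (1 * t * J)⁻¹ = d := by group
    rw [e] at this
    simpa using this
  have h6 : ι (1, t) ∈ X := by
    have := mul_mem (h4 1 (one_mem _)) (inv_mem (h5 J h.quat.J_mem_D))
    rw [WrData.ι_inv, WrData.ι_mul] at this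
    have e : 1 * t * J * J⁻¹ = t := by group
    rw [e] at this
    simpa using this
  have h7 : ∀ u ∈ h.quat.Q, ι (1, u) ∈ X := by
    intro u hu
    rcases h.quat.mem_Q_cases hu with hd | ⟨d, hd, rfl⟩
    · exact h5 u hd
    · have := mul_mem (h5 d hd) h6
      rw [WrData.ι_mul] at this
      simpa using this
  have h8 : ∀ u ∈ h.quat.Q, ι (u, 1) ∈ X := by
    intro u hu
    have := hn _ (h7 u hu) σ h.σ_mem_PP
    rwa [h.σ_conj] at this
  have h9 : ∀ a ∈ h.quat.Q, ∀ b ∈ h.quat.Q, ι (a, b) ∈ X := by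
    intro a ha b hb
    have := mul_mem (h8 a ha) (h7 b hb)
    rw [WrData.ι_mul] at this
    simpa using this
  apply le_antisymm hX
  rintro _ ⟨a, ha, b, hb, rfl | rfl⟩
  · exact h9 a ha b hb
  · exact mul_mem (h9 a ha b hb) hσ

end Cfsg.Agent.Lib.Helper47.FSP
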