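import Mathlib
import Cfsg.Agent.Lib.Helper47.FSP.Defs
import Cfsg.Agent.Lib.Helper47.FSP.QBasic
import Cfsg.Agent.Lib.Helper47.FSP.WRP
import Cfsg.Agent.Lib.Helper47.FSP.QNA

/-!
Ladder FSP (S5320), rung WRN: the normaliser of `Q ≀ 2` in `H`.
-/

set_option autoImplicit false

namespace Cfsg.Agent.Lib.Helper47.FSP

open Subgroup

variable {L H : Type*} [Group L] [Group H] {J t z : L} {ι : L × L →* H} {σ τ : H}

/-- a conjugate of `z1` is not central. -/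
theorem WrData.wrn_not_central (h : WrData J t z ι σ τ) (g : H) :
    g * ι (z, 1) * g⁻¹ ∉ Subgroup.center H := by
  intro hc
  apply h.z1_not_mem_center
  have e : ι (z, 1) = g⁻¹ * (g * ι (z, 1) * g⁻¹) * g := by group
  rw [e]
  have := (mem_center_iff.1 hc g)
  rw [mul_assoc, ← this, ← mul_assoc, inv_mul_cancel, one_mul]
  exact hc

theorem WrData.wrn_one_mem (h : WrData J t z ι σ τ) {e : L} (he : e = 1 ∨ e = z) :
    ι (e, e) ∈ Subgroup.center H := by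
  rcases he with rfl | rfl
  · rw [WrData.ι_one]; exact one_mem _
  · exact h.ζ_mem

/-- the conjugate of `z1` by an element of `N(PP)`. -/
theorem WrData.wrn_conj_z1 (h : WrData J t z ι σ τ) (g : H) (hg : Nz h.PP g) :
    g * ι (z, 1) * g⁻¹ = ι (z, 1) ∨ g * ι (z, 1) * g⁻¹ = ι (1, z) := by
  have hs : g * ι (J, 1) * g⁻¹ ∈ h.PP := (hg _).1 (h.ι_mem_PP h.quat.J_mem_Q (one_mem _))
  have hsq : (g * ι (J, 1) * g⁻¹) * (g * ι (J, 1) * g⁻¹) = g * ι (z, 1) * g⁻¹ := by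
    have : ι (z, 1) = ι (J, 1) * ι (J, 1) := by rw [WrData.ι_mul, h.quat.J_sq, one_mul]
    rw [this]; group
  have h4 : (g * ι (z, 1) * g⁻¹) * (g * ι (z, 1) * g⁻¹) = 1 := by
    have : ι (z, 1) * ι (z, 1) = 1 := by rw [WrData.ι_mul, h.quat.z_sq, one_mul, WrData.ι_one]
    calc g * ι (z, 1) * g⁻¹ * (g * ι (z, 1) * g⁻¹) = g * (ι (z, 1) * ι (z, 1)) * g⁻¹ := by group
      _ = 1 := by rw [this]; group
  have hnc := h.wrn_not_central g
  obtain ⟨a, -, b, -, e | e⟩ := hs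
  · rw [e, WrData.ι_mul] at hsq
    rw [← hsq, WrData.ι_mul, ← WrData.ι_one ι] at h4
    obtain ⟨ha, hb⟩ := h.ι_eq h4
    rw [← hsq] at hnc ⊢
    rcases h.quat.invol _ ha with ha | ha <;> rcases h.quat.invol _ hb with hb | hb
    · rw [ha, hb] at hnc
      exact absurd (h.wrn_one_mem (Or.inl rfl)) hnc
    · right; rw [ha, hb]
    · left; rw [ha, hb]
    · rw [ha, hb] at hnc
      exact absurd (h.wrn_one_mem (Or.inr rfl)) hnc
  · exfalso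
    rw [e, h.sq_ισ] at hsq
    rw [← hsq, WrData.ι_mul, ← WrData.ι_one ι] at h4
    obtain ⟨ha, -⟩ := h.ι_eq h4
    have hab := h.quat.invol _ ha
    have hba : b * a = a * b := by
      have e1 : b * a = a⁻¹ * (a * b) * a := by group
      rcases hab with hab | hab
      · rw [e1, hab]; group
      · rw [e1, hab, mul_assoc, h.quat.z_comm a]; group
    rw [← hsq, hba] at hnc
    exact hnc (h.wrn_one_mem hab)

theorem WrData.wrn_core (h : WrData J t z ι σ τ) {w0 : L} (hw : Nz h.quat.Q w0)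
    (hN : ∀ g : L, Nz h.quat.Q g → ∃ p ∈ h.quat.Q, ∃ i : ℕ, g = w0 ^ i * p)
    (g : H) (hg : Nz h.PP g) (hz : g * ι (z, 1) * g⁻¹ = ι (z, 1)) :
    ∃ p ∈ h.PP, ∃ i : ℕ, g = ι (w0, w0) ^ i * p := by
  have hz' : g * ι (z, 1) = ι (z, 1) * g := by
    calc g * ι (z, 1) = g * ι (z, 1) * g⁻¹ * g := by group
      _ = ι (z, 1) * g := by rw [hz]
  obtain ⟨g1, g2, rfl⟩ := h.cent g hz'
  have hg1 : Nz h.quat.Q g1 := by
    intro s
    have := hg (ι (s, 1))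
    rw [WrData.ι_conj, h.ι_mem_PP_iff, h.ι_mem_PP_iff] at this
    constructor
    · intro hs
      exact (this.1 ⟨hs, one_mem _⟩).1
    · intro hs
      exact (this.2 ⟨hs, by simp⟩).1
  obtain ⟨p1, hp1, i, hi⟩ := hN g1 hg1
  have hσ : ι (g1, g2) * σ * (ι (g1, g2))⁻¹ = ι (g1 * g2⁻¹, g2 * g1⁻¹) * σ := by
    rw [WrData.ι_inv, mul_assoc, h.σ_mul, ← mul_assoc, WrData.ι_mul]
  have hq : g1 * g2⁻¹ ∈ h.quat.Q := by
    have := (hg σ).1 h.σ_mem_PP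
    rw [hσ, h.ισ_mem_PP_iff] at this
    exact this.1
  have hp2 : (w0 ^ i)⁻¹ * g2 ∈ h.quat.Q := by
    have e : (w0 ^ i)⁻¹ * g2 = ((w0 ^ i)⁻¹ * (g1 * g2⁻¹)⁻¹ * (w0 ^ i)⁻¹⁻¹) * p1 := by
      rw [hi]; group
    rw [e]
    exact mul_mem ((qna_Nz_inv (qna_Nz_pow hw i) _).1 (inv_mem hq)) hp1
  refine ⟨ι (p1, (w0 ^ i)⁻¹ * g2), h.ι_mem_PP hp1 hp2, i, ?_⟩
  rw [WrData.ι_pow, WrData.ι_mul, ← hi]
  congr 2
  group

theorem WrData.normalizer (h : WrData J t z ι σ τ) {w0 : L} (hw : Nz h.quat.Q w0)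
    (hN : ∀ g : L, Nz h.quat.Q g → ∃ p ∈ h.quat.Q, ∃ i : ℕ, g = w0 ^ i * p)
    (g : H) (hg : Nz h.PP g) : ∃ p ∈ h.PP, ∃ i : ℕ, g = ι (w0, w0) ^ i * p := by
  rcases h.wrn_conj_z1 g hg with hz | hz
  · exact h.wrn_core hw hN g hg hz
  · have h1 : (σ * g) * ι (z, 1) * (σ * g)⁻¹ = ι (z, 1) := by
      calc (σ * g) * ι (z, 1) * (σ * g)⁻¹ = σ * (g * ι (z, 1) * g⁻¹) * σ⁻¹ := by group
        _ = ι (z, 1) := by rw [hz, h.σ_conj]
    obtain ⟨p, hp, i, hi⟩ := h.wrn_core hw hN (σ * g)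
      (qna_Nz_mul (qna_Nz_of_mem h.σ_mem_PP) hg) h1
    refine ⟨σ * p, mul_mem h.σ_mem_PP hp, i, ?_⟩
    have e : g = σ * (σ * g) := by rw [← mul_assoc, h.σ_sq, one_mul]
    rw [e, hi, WrData.ι_pow, ← mul_assoc, ← mul_assoc, h.σ_mul]

end Cfsg.Agent.Lib.Helper47.FSP
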