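import Mathlib
import Cfsg.Prelude.Def_FusionSystem
import Cfsg.Agent.Lib.Helper47.FSP.Defs
import Cfsg.Agent.Lib.Helper47.FSP.QBasic
import Cfsg.Agent.Lib.Helper47.FSP.Mat
import Cfsg.Agent.Lib.Helper47.FSP.WRP
import Cfsg.Agent.Lib.Helper47.FSP.CritTop
import Cfsg.Agent.Lib.Helper47.FSP.CritConj
import Cfsg.Agent.Lib.Helper47.FSP.Quot
import Cfsg.Agent.Lib.Helper47.FSP.QNA
import Cfsg.Agent.Lib.Helper47.FSP.QNB
import Cfsg.Agent.Lib.Helper47.FSP.WRN
import Cfsg.Agent.Lib.Helper47.FSP.WRC1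
import Cfsg.Agent.Lib.Helper47.FSP.WRC2
import Cfsg.Agent.Lib.Helper47.FSP.AB1
import Cfsg.Agent.Lib.Helper47.FSP.AB2
import Cfsg.Agent.Lib.Helper47.FSP.AB3
import Cfsg.Agent.Lib.Helper47.FSP.SLQ1
import Cfsg.Agent.Lib.Helper47.FSP.SLQ2
import Cfsg.Agent.Lib.Helper47.FSP.SLW
import Cfsg.Agent.Lib.Helper47.FSP.SPI
import Cfsg.Agent.Lib.Helper47.FSP.SPC
import Cfsg.Agent.Lib.Helper47.FSP.SPT

set_option autoImplicit false

namespace Cfsg.Agent.Lib.Helper47.FSP

open Subgroup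

/-- a subgroup satisfying the criterion is a Sylow subgroup; the criterion for every Sylow subgroup. -/
theorem simple_of_crit3 {H : Type*} [Group H] [Finite H] {P : Subgroup H} (h : Crit3 P)
    (S : Sylow 2 H) : (Cfsg.groupFusionSystem (S : Subgroup H)).IsSimple 2 := by
  have : Fact (Nat.Prime 2) := ⟨Nat.prime_two⟩
  obtain ⟨Q, hQ⟩ : ∃ Q : Sylow 2 H, (Q : Subgroup H) = P := by
    obtain ⟨Q, hQ⟩ := h.pgroup.exists_le_sylow
    refine ⟨Q, ?_⟩
    by_contra hne
    have hlt : P < (Q : Subgroup H) := lt_of_le_of_ne hQ (Ne.symm hne)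
    have hnil : Group.IsNilpotent (Q : Subgroup H) := Q.2.isNilpotent
    have hnc := @Group.normalizerCondition_of_isNilpotent (Q : Subgroup H) _ hnil
    have hlt' : P.subgroupOf (Q : Subgroup H) < ⊤ := by
      rw [lt_top_iff_ne_top]
      intro htop
      rw [Subgroup.subgroupOf_eq_top] at htop
      exact hlt.not_ge htop
    have h1 := hnc _ hlt'
    obtain ⟨g, hg, hgP⟩ := SetLike.exists_of_lt h1
    apply hgP
    rw [Subgroup.mem_subgroupOf]
    apply h.two
    · intro s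
      rw [Subgroup.mem_normalizer_iff] at hg
      constructor
      · intro hs
        have := (hg ⟨s, hQ hs⟩).1 (by rw [Subgroup.mem_subgroupOf]; exact hs)
        rw [Subgroup.mem_subgroupOf] at this
        simpa using this
      · intro hs
        have hsQ : s ∈ (Q : Subgroup H) := by
          have h3 := hQ hs
          have h4 : s = (g : H)⁻¹ * ((g : H) * s * (g : H)⁻¹) * (g : H) := by group
          rw [h4]
          exact mul_mem (mul_mem (inv_mem g.2) h3) g.2
        have := (hg ⟨s, hsQ⟩).2 (by rw [Subgroup.mem_subgroupOf]; simpa using hs)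
        rw [Subgroup.mem_subgroupOf] at this
        exact this
    · obtain ⟨k, hk⟩ := Q.2 g
      exact ⟨k, by simpa using congrArg Subtype.val hk⟩
  obtain ⟨c, hc⟩ := MulAction.exists_smul_eq H Q S
  apply simple_of_crit3_top
  apply h.conj c
  intro x
  rw [← hc, ← hQ, Sylow.coe_subgroup_smul, Subgroup.mem_pointwise_smul_iff_inv_smul_mem]
  simp [MulAut.smul_def, mul_assoc]

section W
variable {L H : Type*} [Group L] [Group H] {J t z : L} {ι : L × L →* H} {σ τ : H}

theorem WrData.closed (h : WrData J t z ι σ τ) (X : Subgroup H) (hX : X ≤ h.PP)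
    (hZ : Subgroup.center H ≤ X) (hne : X ≠ Subgroup.center H)
    (hcl : ∀ s ∈ X, ∀ g : H, g * s * g⁻¹ ∈ h.PP → g * s * g⁻¹ ∈ X) : X = h.PP :=
  h.eq_PP_of_z1 X hX (h.z1_mem X hX (fun hle => hne (le_antisymm hle hZ))
    (fun s hs g hg => hcl s hs g (mul_mem (mul_mem hg (hX hs)) (inv_mem hg)))) hcl

theorem Nz_one {G : Type*} [Group G] (P : Subgroup G) : Nz P 1 := by
  intro s; simp

theorem WrData.crit3Z_A (h : WrData J t z ι σ τ) (hc : ∃ c : L, Commute c J ∧ c * c = J) :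
    Crit3Z h.PP (Subgroup.center H) where
  Z_central := le_rfl
  pgroup := h.isPGroup_PP
  ne := h.PP_ne_center
  closed := h.closed
  extra := by
    have hN : ∀ g : H, Nz h.PP g → g ∈ h.PP := by
      intro g hg
      obtain ⟨p, hp, i, e⟩ := h.normalizer (w0 := 1) (Nz_one _)
        (fun g hg => ⟨g, h.quat.normalizer_A hc g hg, 0, by simp⟩) g hg
      rw [WrData.ι_one, one_pow, one_mul] at e
      rw [e]; exact hp
    refine ⟨h.PP, 1, 1, ?_⟩
    refine ⟨h.center_le_PP, le_rfl, Nz_one _, Nz_one _, Nz_one _, ?_, ?_, ⟨0, by simp⟩, by simp,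
      by simp, ?_⟩
    · intro s hs a ha
      exact mul_mem (mul_mem hs ha) (inv_mem hs)
    · intro x hx
      apply hN
      intro s
      constructor
      · intro hs
        have h1 := h.center_le_PP (hx s hs)
        have e : x * s * x⁻¹ = (x * s * x⁻¹ * s⁻¹) * s := by group
        rw [e]; exact mul_mem h1 hs
      · intro hs
        have h1 := hx _ hs
        have h2 := h.center_le_PP h1
        have h3 := Subgroup.mem_center_iff.1 h1 x⁻¹
        -- x⁻¹ * c = c * x⁻¹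
        have e : s = (x * (x * s * x⁻¹) * x⁻¹ * (x * s * x⁻¹)⁻¹)⁻¹ * (x * s * x⁻¹) := by
          have e1 : x⁻¹ * (x * (x * s * x⁻¹) * x⁻¹ * (x * s * x⁻¹)⁻¹) * x = x * s * x⁻¹ * s⁻¹ := by
            group
          rw [h3] at e1
          have e2 : x * (x * s * x⁻¹) * x⁻¹ * (x * s * x⁻¹)⁻¹ = x * s * x⁻¹ * s⁻¹ := by
            rw [← e1]; group
          rw [e2]; group
        rw [e]
        exact mul_mem (inv_mem h2) hs
    · intro g hg
      exact ⟨g, hN g hg, 0, by simp⟩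

theorem WrData.crit3Z_B (h : WrData J t z ι σ τ) {w0 : L} (hB : WrDataB J t z w0 ι σ τ) :
    Crit3Z h.PP (Subgroup.center H) where
  Z_central := le_rfl
  pgroup := h.isPGroup_PP
  ne := h.PP_ne_center
  closed := h.closed
  extra := by
    have hw := h.quat.Nz_w0 hB.noc hB.w_cube hB.w_J hB.w_t
    refine ⟨AA J t z ι σ, ι (w0, w0), τ, ?_⟩
    refine ⟨h.center_le_AA, h.AA_le, h.Nz_w hw, h.Nz_AA_w hB, h.Nz_AA_τ hB, h.AA_normal (h.quat.D_eq_B hB.noc),
      h.AA_centric, ⟨2, ?_⟩, ?_, ?_, ?_⟩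
    · have : τ ^ 2 ^ 2 = (τ * τ) * (τ * τ) := by
        norm_num [pow_succ, mul_assoc]
      rw [this, hB.τ_sq, WrData.ι_mul, h.quat.z_sq, WrData.ι_one]
    · rw [hB.τ_w, WrData.ι_inv]
    · rw [WrData.ι_pow, hB.w_cube, WrData.ι_one]
    · exact h.normalizer hw (h.quat.normalizer_B hB.noc hB.w_cube hB.w_J hB.w_t)

end W

section M
variable {F : Type*} [Field F] [Fintype F]

theorem wrData_Sp4 (h2 : (2 : F) ≠ 0) (x y : F) (h : x ^ 2 + y ^ 2 = -1) :
    WrData (Jm : SL2 F) (tm x y h) zm iota sig (tau x y h h2) where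
  quat := quatData_SL2_of_fus h2 x y h (fus_SL2 h2)
  inj := iota_injective
  σ_sq := sig_sq
  σ_conj := sig_conj
  cent := cent_z1 h2
  center := center_Sp4
  τ_z := tau_z x y h h2

theorem exists_crit3Z_Sp4 (hodd : Fintype.card F % 2 = 1) :
    ∃ P : Subgroup (Sp4 F), Crit3Z P (Subgroup.center (Sp4 F)) := by
  have h2 : (2 : F) ≠ 0 := by
    intro h
    have hc : CharP F 2 := CharTwo.of_one_ne_zero_of_two_eq_zero one_ne_zero h
    have := FiniteField.even_card_of_char_two (F := F) (ringChar.eq F 2)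
    omega
  obtain ⟨x, y, h⟩ : ∃ x y : F, x ^ 2 + y ^ 2 = -1 := by
    obtain ⟨a, b, hab⟩ := FiniteField.exists_root_sum_quadratic (R := F)
      (f := Polynomial.X ^ 2) (g := Polynomial.X ^ 2 + Polynomial.C 1)
      (Polynomial.degree_X_pow 2) (Polynomial.degree_X_pow_add_C (by norm_num) _) hodd
    refine ⟨a, b, ?_⟩
    simp only [Polynomial.eval_pow, Polynomial.eval_X, Polynomial.eval_add, Polynomial.eval_C] at hab
    linear_combination hab
  have hW := wrData_Sp4 h2 x y h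
  by_cases hc : ∃ c : SL2 F, Commute c Jm ∧ c * c = Jm
  · exact ⟨_, hW.crit3Z_A hc⟩
  · refine ⟨_, hW.crit3Z_B (w0 := wm x y h h2) ⟨?_, tau_sq x y h h2, tau_J x y h h2, tau_t x y h h2,
      wm_cube x y h h2, wm_J x y h h2, wm_t x y h h2, tau_w x y h h2⟩⟩
    intro c hcJ hcc
    exact hc ⟨c, hcJ, hcc⟩

end M

end Cfsg.Agent.Lib.Helper47.FSP
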