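import Mathlib
import Cfsg.Agent.Lib.Helper47.FSP.Defs
import Cfsg.Agent.Lib.Helper47.FSP.QBasic
import Cfsg.Agent.Lib.Helper47.FSP.WRP

/-!
Ladder FSP (S5320), rung WRC1: a noncentral normal subgroup of `Q ≀ 2` contains `ι(z,1)`.
-/

set_option autoImplicit false

namespace Cfsg.Agent.Lib.Helper47.FSP

open Subgroup

variable {L H : Type*} [Group L] [Group H] {J t z : L} {ι : L × L →* H} {σ τ : H}

/-- case (b): `ι(a,b) ∈ X` with `a² = b² = z`. -/
theorem WrData.wrc1_b (h : WrData J t z ι σ τ) (X : Subgroup H)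
    (hcl : ∀ s ∈ X, ∀ g ∈ h.PP, g * s * g⁻¹ ∈ X) {a b : L} (hb : b ∈ h.quat.Q)
    (haa : a * a = z) (hx : ι (a, b) ∈ X) : ι (z, 1) ∈ X := by
  obtain ⟨b', hb', e⟩ := h.quat.exists_inverting hb
  have h1 := hcl _ hx (ι (1, b')) (h.ι_mem_PP (one_mem _) hb')
  rw [WrData.ι_conj, e] at h1
  have h2 := mul_mem hx h1
  rw [WrData.ι_mul] at h2
  have e2 : a * (1 * a * 1⁻¹) = z := by simpa using haa
  rwa [e2, mul_inv_cancel] at h2

theorem WrData.z1_mem (h : WrData J t z ι σ τ) (X : Subgroup H) (hX : X ≤ h.PP)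
    (hne : ¬ X ≤ Subgroup.center H)
    (hcl : ∀ s ∈ X, ∀ g ∈ h.PP, g * s * g⁻¹ ∈ X) : ι (z, 1) ∈ X := by
  classical
  obtain ⟨x, hxX, hxc⟩ := SetLike.not_le_iff_exists.1 hne
  -- a power `y` of `x`, not central, with central square
  obtain ⟨y, hyX, hyc, hyy⟩ : ∃ y ∈ X, y ∉ Subgroup.center H ∧ y * y ∈ Subgroup.center H := by
    have hex : ∃ k : ℕ, x ^ 2 ^ k ∈ Subgroup.center H := by
      obtain ⟨k, hk⟩ := h.exists_pow_of_mem_PP (hX hxX)
      exact ⟨k, by rw [hk]; exact one_mem _⟩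
    have hk0 : Nat.find hex ≠ 0 := by
      intro h0
      have := Nat.find_spec hex
      rw [h0] at this
      simp at this
      exact hxc this
    obtain ⟨m, hm⟩ := Nat.exists_eq_succ_of_ne_zero hk0
    refine ⟨x ^ 2 ^ m, pow_mem hxX _, Nat.find_min hex (by omega), ?_⟩
    have := Nat.find_spec hex
    rw [hm, Nat.succ_eq_add_one, pow_succ, pow_mul, pow_two] at this
    exact this
  obtain ⟨a, ha, b, hb, rfl | rfl⟩ := hX hyX
  · rw [WrData.ι_mul] at hyy
    rcases (h.center _).1 hyy with e | e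
    · rw [← WrData.ι_one ι] at e
      obtain ⟨ea, eb⟩ := h.ι_eq e
      rcases h.quat.invol a ea with rfl | rfl <;> rcases h.quat.invol b eb with rfl | rfl
      · exact absurd (by rw [WrData.ι_one]; exact one_mem _) hyc
      · have := hcl _ hyX σ h.σ_mem_PP
        rwa [h.σ_conj] at this
      · exact hyX
      · exact absurd h.ζ_mem hyc
    · obtain ⟨ea, -⟩ := h.ι_eq e
      exact h.wrc1_b X hcl hb ea hyX
  · -- conjugate by `ι(1,a)`
    rw [h.sq_ισ] at hyy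
    have hab : a * b = 1 ∨ a * b = z := by
      rcases (h.center _).1 hyy with e | e
      · rw [← WrData.ι_one ι] at e
        exact Or.inl (h.ι_eq e).1
      · exact Or.inr (h.ι_eq e).1
    have h1 := hcl _ hyX (ι (1, a)) (h.ι_mem_PP (one_mem _) ha)
    have e1 : ι (1, a) * (ι (a, b) * σ) * (ι (1, a))⁻¹ = ι (1, a * b) * σ := by
      rw [WrData.ι_inv, mul_assoc, mul_assoc, h.σ_mul, ← mul_assoc, ← mul_assoc, WrData.ι_mul,
        WrData.ι_mul]
      simp
    rw [e1] at h1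
    set e := a * b with he
    have hec : ∀ u : L, e * u = u * e := by
      intro u
      rcases hab with h0 | h0 <;> rw [h0]
      · simp
      · exact h.quat.z_comm u
    -- commutator with `ι(J,1)`
    have h2 := hcl _ (inv_mem h1) (ι (J, 1)) (h.ι_mem_PP h.quat.J_mem_Q (one_mem _))
    have h3 := mul_mem h1 h2
    have e3 : ι (1, e) * σ * (ι (J, 1) * (ι (1, e) * σ)⁻¹ * (ι (J, 1))⁻¹) = ι (J⁻¹, J) := by
      have e4 : ι (1, e) * σ * (ι (J, 1) * (ι (1, e) * σ)⁻¹ * (ι (J, 1))⁻¹)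
          = ι (1, e) * (σ * ι (J, 1) * σ⁻¹) * (ι (1, e))⁻¹ * (ι (J, 1))⁻¹ := by group
      rw [e4, h.σ_conj, WrData.ι_conj, WrData.ι_inv, WrData.ι_mul, hec J]
      simp
    rw [e3] at h3
    refine h.wrc1_b X hcl h.quat.J_mem_Q ?_ h3
    rw [← mul_inv_rev, h.quat.J_sq, h.quat.z_inv]

end Cfsg.Agent.Lib.Helper47.FSP
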